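import Mathlib
import Cfsg.Agent.Lib.Helper10.BR0

/-!
# S0996 (Brauer–Reynolds, Theorem 1): foundation

Generalised versions `GPre`, `GTab` of helper10's `Pre`, `Tab` (see `Cfsg.Agent.Lib.Helper10.BR0`):
the number `1 + n p` of Sylow `p`-subgroups is only assumed to satisfy `2 n < p + 3`, so that
`|G| = (1 + n p) e p` is not yet known to be `p (p - 1) (p - e)`.
-/

set_option autoImplicit false

namespace Cfsg.Agent.Lib.Helper5.BQ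

open Cfsg
open Cfsg.Agent.Lib.Helper83 (trivIrr)
open Cfsg.Agent.Lib.Helper10.BR (psum)
open scoped ComplexConjugate

universe u

/-- Block-level table: the principal block is `{1} ∪ A ∪ B ∪ Y`; members of `A` have degree
`1 + n p` and value `1` on `P \ {1}`, members of `B` have degree `p - 1` and value `-1` on
`P \ {1}` (and if `B` is nonempty then `t ∣ n + 1`), the `t` members of `Y` have degree `x₀`. -/
structure GPre (G : Type u) [Group G] (p : ℕ) (M : Ideal AlgInt) (P : Subgroup G)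
    (e t n : ℕ) (ε : ℤ) (x₀ : ℕ) (A B Y : Finset (IrrCharacter G)) : Prop where
  block : principalBlock M G = {ψ | ψ = trivIrr G ∨ ψ ∈ A ∨ ψ ∈ B ∨ ψ ∈ Y}
  triv_nmem : trivIrr G ∉ A ∧ trivIrr G ∉ B ∧ trivIrr G ∉ Y
  disj : Disjoint A B ∧ Disjoint A Y ∧ Disjoint B Y
  degA : ∀ χ ∈ A, (χ : G → ℂ) 1 = ((1 + n * p : ℕ) : ℂ)
  valA : ∀ χ ∈ A, ∀ x ∈ P, x ≠ 1 → (χ : G → ℂ) x = 1
  degB : ∀ χ ∈ B, (χ : G → ℂ) 1 = ((p - 1 : ℕ) : ℂ)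
  valB : ∀ χ ∈ B, ∀ x ∈ P, x ≠ 1 → (χ : G → ℂ) x = -1
  nB : B.Nonempty → t ∣ n + 1
  cardAB : A.card + B.card = e - 1
  cardY : Y.card = t
  degY : ∀ θ ∈ Y, (θ : G → ℂ) 1 = (x₀ : ℂ)
  x₀_ge : 2 ≤ x₀
  t1 : ∀ θ ∈ Y, ∀ g : G, ¬ p ∣ orderOf g →
    (ε : ℂ) * (θ : G → ℂ) g = 1 + ∑ χ ∈ A, (χ : G → ℂ) g - ∑ χ ∈ B, (χ : G → ℂ) g
  hε : ε = 1 ∨ ε = -1
  modY : (x₀ : ℤ) ≡ ε * (e : ℤ) [ZMOD p]

/-- Full table in the self-centralizing case: `C_G(P) = P`, `|P| = p ≥ 5`, `|N_G(P)| = e p`,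
`e t = p - 1`, `|G| = (1 + n p) e p` with `1 ≤ n`, `2 n < p + 3`;
`Irr(G) = {1} ⊔ A ⊔ B ⊔ Y ⊔ D` with `A, B, Y` as in `GPre` and `D`: degree divisible by `p`,
vanishing on `P \ {1}`. -/
structure GTab (G : Type u) [Group G] (p e t n : ℕ) (P : Subgroup G)
    (ε : ℤ) (x₀ : ℕ) (A B Y D : Finset (IrrCharacter G)) : Prop where
  hp : p.Prime
  hp5 : 5 ≤ p
  he : 2 ≤ e
  het : e * t = p - 1
  hn1 : 1 ≤ n
  hn : 2 * n < p + 3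
  cardP : Nat.card P = p
  cent : Subgroup.centralizer (P : Set G) = P
  cardN : Nat.card (Subgroup.normalizer (P : Set G)) = e * p
  cardG : Nat.card G = (1 + n * p) * (e * p)
  part : ∀ ψ : IrrCharacter G, ψ = trivIrr G ∨ ψ ∈ A ∨ ψ ∈ B ∨ ψ ∈ Y ∨ ψ ∈ D
  triv_nmem : trivIrr G ∉ A ∧ trivIrr G ∉ B ∧ trivIrr G ∉ Y ∧ trivIrr G ∉ D
  disj : Disjoint A B ∧ Disjoint A Y ∧ Disjoint A D ∧ Disjoint B Y ∧ Disjoint B D ∧ Disjoint Y D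
  degA : ∀ χ ∈ A, (χ : G → ℂ) 1 = ((1 + n * p : ℕ) : ℂ)
  valA : ∀ χ ∈ A, ∀ x ∈ P, x ≠ 1 → (χ : G → ℂ) x = 1
  degB : ∀ χ ∈ B, (χ : G → ℂ) 1 = ((p - 1 : ℕ) : ℂ)
  valB : ∀ χ ∈ B, ∀ x ∈ P, x ≠ 1 → (χ : G → ℂ) x = -1
  nB : B.Nonempty → t ∣ n + 1
  cardAB : A.card + B.card = e - 1
  cardY : Y.card = t
  degY : ∀ θ ∈ Y, (θ : G → ℂ) 1 = (x₀ : ℂ)
  x₀_ge : 2 ≤ x₀
  t1 : ∀ θ ∈ Y, ∀ g : G, ¬ p ∣ orderOf g →
    (ε : ℂ) * (θ : G → ℂ) g = 1 + ∑ χ ∈ A, (χ : G → ℂ) g - ∑ χ ∈ B, (χ : G → ℂ) g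
  hε : ε = 1 ∨ ε = -1
  modY : (x₀ : ℤ) ≡ ε * (e : ℤ) [ZMOD p]
  degD : ∀ ψ ∈ D, ∃ k : ℕ, (ψ : G → ℂ) 1 = ((p * k : ℕ) : ℂ)
  valD : ∀ ψ ∈ D, ∀ x ∈ P, x ≠ 1 → (ψ : G → ℂ) x = 0

/-- The numerical configuration of the table (output of the degree equation). -/
def Num (p e t n a : ℕ) (ε : ℤ) (x₀ : ℕ) : Prop :=
  (ε = 1 ∧ x₀ = e ∧ a * (n + 1) + 1 = e) ∨
  (ε = -1 ∧ ∃ k : ℕ, x₀ + e = k * p ∧ n + 1 = k * t ∧ a * (n + 1) + k + 1 = e)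

variable {G : Type u} [Group G]

/-- Splitting a sum over all irreducible characters along the partition of `GTab`. -/
theorem GTab.sum_split {p e t n : ℕ} {P : Subgroup G} {ε : ℤ} {x₀ : ℕ}
    {A B Y D : Finset (IrrCharacter G)} (h : GTab G p e t n P ε x₀ A B Y D)
    [Fintype (IrrCharacter G)] {R : Type*} [AddCommMonoid R] (f : IrrCharacter G → R) :
    ∑ ψ, f ψ = f (trivIrr G) + ∑ ψ ∈ A, f ψ + ∑ ψ ∈ B, f ψ + ∑ ψ ∈ Y, f ψ + ∑ ψ ∈ D, f ψ := by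
  classical
  obtain ⟨hA, hB, hY, hD⟩ := h.triv_nmem
  obtain ⟨hAB, hAY, hAD, hBY, hBD, hYD⟩ := h.disj
  have huniv : (Finset.univ : Finset (IrrCharacter G)) =
      insert (trivIrr G) (((A ∪ B) ∪ Y) ∪ D) := by
    ext ψ
    simp only [Finset.mem_univ, Finset.mem_insert, Finset.mem_union, true_iff]
    rcases h.part ψ with h1 | h1 | h1 | h1 | h1 <;> tauto
  rw [huniv, Finset.sum_insert (by simp [hA, hB, hY, hD]), Finset.sum_union, Finset.sum_union,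
    Finset.sum_union hAB]
  · simp only [add_assoc]
  · exact Finset.disjoint_union_left.mpr ⟨hAY, hBY⟩
  · exact Finset.disjoint_union_left.mpr ⟨Finset.disjoint_union_left.mpr ⟨hAD, hBD⟩, hYD⟩

/-- The same splitting for a `finsum` (no `Fintype` instance needed in the statement). -/
theorem GTab.finsum_split {p e t n : ℕ} {P : Subgroup G} {ε : ℤ} {x₀ : ℕ}
    {A B Y D : Finset (IrrCharacter G)} (h : GTab G p e t n P ε x₀ A B Y D)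
    [Finite (IrrCharacter G)] {R : Type*} [AddCommMonoid R] (f : IrrCharacter G → R) :
    ∑ᶠ ψ, f ψ = f (trivIrr G) + ∑ ψ ∈ A, f ψ + ∑ ψ ∈ B, f ψ + ∑ ψ ∈ Y, f ψ + ∑ ψ ∈ D, f ψ := by
  classical
  letI : Fintype (IrrCharacter G) := Fintype.ofFinite _
  rw [finsum_eq_sum_of_fintype]
  exact h.sum_split f

end Cfsg.Agent.Lib.Helper5.BQ
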