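import Mathlib
import Cfsg.Agent.Lib.Helper48.QADefs

/-!
# Project QA (helper48, S2787): piece QA-QRELINV (helper5)

If `s` acts on `e R ⊕ M e R` by the matrix `A` of determinant one and `t * s = 1`, then `t` acts
by the adjugate of `A`.
-/

set_option autoImplicit false

universe u

namespace Cfsg.Agent.Lib.Helper48.QA

open Matrix Polynomial

/-- the ring-theoretic core of `rel_inv` -/
theorem rel_inv_aux {R : Type*} [Ring R] (M s t a b c d e : R) (hst : t * s = 1)
    (hae : e * a = a * e) (hbe : e * b = b * e) (hce : e * c = c * e) (hde : e * d = d * e)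
    (hab : a * b = b * a) (had : a * d = d * a) (hbc : b * c = c * b) (hcd : c * d = d * c)
    (hdet : a * d - b * c = 1)
    (h1 : s * e = a * e + M * (c * e)) (h2 : s * (M * e) = b * e + M * (d * e)) :
    t * e = d * e + M * (-c * e) ∧ t * (M * e) = -b * e + M * (a * e) := by
  have k1 : s * (d * e - M * (c * e)) = e := by
    have e1 : s * (d * e - M * (c * e)) = (s * e) * d - (s * (M * e)) * c := by
      rw [← hde, ← hce]; noncomm_ring
    rw [e1, h1, h2]
    have e2 : (a * e + M * (c * e)) * d - (b * e + M * (d * e)) * c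
        = (a * d - b * c) * e + M * ((c * d - d * c) * e) := by
      calc (a * e + M * (c * e)) * d - (b * e + M * (d * e)) * c
          = a * (e * d) + M * (c * (e * d)) - (b * (e * c) + M * (d * (e * c))) := by
            noncomm_ring
        _ = a * (d * e) + M * (c * (d * e)) - (b * (c * e) + M * (d * (c * e))) := by
            rw [hde, hce]
        _ = (a * d - b * c) * e + M * ((c * d - d * c) * e) := by noncomm_ring
    rw [e2, hdet, hcd, sub_self, zero_mul, mul_zero, add_zero, one_mul]
  have k2 : s * (-(b * e) + M * (a * e)) = M * e := by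
    have e1 : s * (-(b * e) + M * (a * e)) = -((s * e) * b) + (s * (M * e)) * a := by
      rw [← hbe, ← hae]; noncomm_ring
    rw [e1, h1, h2]
    have e2 : -((a * e + M * (c * e)) * b) + (b * e + M * (d * e)) * a
        = (b * a - a * b) * e + M * ((d * a - c * b) * e) := by
      calc -((a * e + M * (c * e)) * b) + (b * e + M * (d * e)) * a
          = -(a * (e * b) + M * (c * (e * b))) + (b * (e * a) + M * (d * (e * a))) := by
            noncomm_ring
        _ = -(a * (b * e) + M * (c * (b * e))) + (b * (a * e) + M * (d * (a * e))) := by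
            rw [hbe, hae]
        _ = (b * a - a * b) * e + M * ((d * a - c * b) * e) := by noncomm_ring
    rw [e2, ← hab, sub_self, zero_mul, zero_add, ← had, ← hbc, hdet, one_mul]
  constructor
  · calc t * e = t * (s * (d * e - M * (c * e))) := by rw [k1]
      _ = (t * s) * (d * e - M * (c * e)) := by rw [mul_assoc]
      _ = d * e + M * (-c * e) := by rw [hst, one_mul]; noncomm_ring
  · calc t * (M * e) = t * (s * (-(b * e) + M * (a * e))) := by rw [k2]
      _ = (t * s) * (-(b * e) + M * (a * e)) := by rw [mul_assoc]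
      _ = -b * e + M * (a * e) := by rw [hst, one_mul]; noncomm_ring

/-- QA-QRELINV -/
theorem rel_inv {R : Type*} [Ring R] (M P : R) (j : ℕ) (s t : R) (hst : t * s = 1) (A : Matrix (Fin 2) (Fin 2) ℤ[X])
    (hdet : A.det = 1) (h : Rel M P (P ^ j) s A) : Rel M P (P ^ j) t A.adjugate := by
  obtain ⟨h1, h2⟩ := h
  have hcomm : ∀ f g : ℤ[X], aeval P f * aeval P g = aeval P g * aeval P f := by
    intro f g
    rw [← map_mul, mul_comm, map_mul]
  have he : P ^ j = aeval P (X ^ j : ℤ[X]) := by simp
  have hdet' : aeval P (A 0 0) * aeval P (A 1 1) - aeval P (A 0 1) * aeval P (A 1 0) = 1 := by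
    rw [Matrix.det_fin_two] at hdet
    have h3 := congrArg (aeval P) hdet
    simpa using h3
  have key := rel_inv_aux M s t (aeval P (A 0 0)) (aeval P (A 0 1)) (aeval P (A 1 0))
    (aeval P (A 1 1)) (P ^ j) hst (by rw [he]; exact hcomm _ _) (by rw [he]; exact hcomm _ _)
    (by rw [he]; exact hcomm _ _) (by rw [he]; exact hcomm _ _) (hcomm _ _) (hcomm _ _)
    (hcomm _ _) (hcomm _ _) hdet' h1 h2
  unfold Rel
  rw [Matrix.adjugate_fin_two]
  simpa using key

end Cfsg.Agent.Lib.Helper48.QA
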