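import Mathlib
import Cfsg.Agent.Lib.Helper5.BQ0
import Cfsg.Agent.Lib.Helper16.BQP3
import Cfsg.Agent.Lib.Helper16.BQP9
import Cfsg.Agent.Lib.Helper19.BQX4
import Cfsg.Agent.Lib.Helper20.BQF1
import Cfsg.Agent.Lib.Helper20.BQF2
import Cfsg.Agent.Lib.Helper23.BQN1
import Cfsg.Agent.Lib.Helper23.BQN2
import Cfsg.Agent.Lib.Helper23.BQP2b
import Cfsg.Agent.Lib.Helper23.BQP8
import Cfsg.Agent.Lib.Helper23.BQR1a
import Cfsg.Agent.Lib.Helper23.BQR1b
import Cfsg.Agent.Lib.Helper23.BQR2
import Cfsg.Agent.Lib.Helper30.BQAY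
import Cfsg.Agent.Lib.Helper30.BQX3
import Cfsg.Agent.Lib.Helper30.BQX5
import Cfsg.Agent.Lib.Helper36.BQT0
import Cfsg.Agent.Lib.Helper36.BQT1
import Cfsg.Agent.Lib.Helper39.BQP4
import Cfsg.Agent.Lib.Helper39.BQP7
import Cfsg.Agent.Lib.Helper46.BQADE
import Cfsg.Agent.Lib.Helper46.BQAFIN
import Cfsg.Agent.Lib.Helper46.BQASQ
import Cfsg.Agent.Lib.Helper56.BQL5
import Cfsg.Agent.Lib.Helper56.BQL6
import Cfsg.Agent.Lib.Helper56.BQP2a
import Cfsg.Agent.Lib.Helper56.BQP2c
import Cfsg.Agent.Lib.Helper56.BQPF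
import Cfsg.Agent.Lib.Helper56.BQPP
import Cfsg.Agent.Lib.Helper56.BQT4
import Cfsg.Agent.Lib.Helper63.BQT2
import Cfsg.Agent.Lib.Helper66.BQX1
import Cfsg.Agent.Lib.Helper79.BQF3
import Cfsg.Agent.Lib.Helper79.BQF4
import Cfsg.Agent.Lib.Helper79.BQPB
import Cfsg.Agent.Lib.Helper85.BQX9
import Cfsg.Agent.Lib.Helper10.BR1

/-!
# S0996 (Brauer–Reynolds, Theorem 1): assembly of the main lemma

A simple group with a self-centralizing Sylow `p`-subgroup of order `p` whose number `1 + n p` of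
Sylow `p`-subgroups satisfies `n < (p + 3) / 2` has order less than `p ^ 3`.
-/

set_option autoImplicit false

namespace Cfsg.Agent.Lib.Helper5.BQ

open Cfsg
open Cfsg.Agent.Lib.Helper83 (trivIrr)
open Cfsg.Agent.Lib.Helper10.BR (psum DOut)
open scoped ComplexConjugate

/-- Main lemma: a simple group with a self-centralizing Sylow `p`-subgroup of order `p` and
`1 + n p` Sylow `p`-subgroups, `n < (p + 3) / 2`, has order less than `p ^ 3`. -/
theorem main_lt {G : Type*} [Group G] [Finite G] [IsSimpleGroup G] (hG : ¬ IsCyclic G)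
    (p : ℕ) [Fact p.Prime] (P : Sylow p G) (hP : Nat.card P = p)
    (hCP : Subgroup.centralizer ((P : Subgroup G) : Set G) = (P : Subgroup G))
    (hn : 2 * Nat.card (Sylow p G) < (p + 1) * (p + 2)) : Nat.card G < p ^ 3 := by
  classical
  have hp := (Fact.out : p.Prime)
  letI : Fintype G := Fintype.ofFinite G
  obtain ⟨n, v, hS, hv, hCc, hNc, hidx, hcard⟩ := Cfsg.Agent.Lib.Helper10.BR.card_decomp p P hP
  have he1' := Cfsg.Agent.Lib.Helper10.BR.relIndex_ne_one hG p P hP
  have hedvd' := Cfsg.Agent.Lib.Helper10.BR.relIndex_dvd p P hP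
  obtain ⟨e, hedef⟩ : ∃ e, (Subgroup.centralizer ((P : Subgroup G) : Set G)).relIndex
      (Subgroup.normalizer ((P : Subgroup G) : Set G)) = e := ⟨_, rfl⟩
  rw [hedef] at hNc hidx hcard he1' hedvd'
  have he1 : e ≠ 1 := he1'
  have hedvd : e ∣ p - 1 := hedvd'
  have hv1 : v = 1 := by
    rw [hCP] at hCc
    have h1 : p = p * v := by
      rw [← hCc]; exact hP.symm
    have hp0 := hp.pos
    nlinarith [Nat.eq_of_mul_eq_mul_left hp0 (by rw [mul_one]; exact h1 : p * 1 = p * v)]
  subst hv1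
  have hn0 : n ≠ 0 := by
    rintro rfl
    exact Cfsg.Agent.Lib.Helper10.BR.card_sylow_ne_one hG p P hP (by simpa using hS)
  have hn1 : 1 ≤ n := Nat.one_le_iff_ne_zero.mpr hn0
  have hn2 : 2 * n < p + 3 := by
    rw [hS] at hn
    have hp0 := hp.pos
    by_contra hcon
    rw [not_lt] at hcon
    have h1 : (p + 3) * p ≤ 2 * n * p := Nat.mul_le_mul_right p hcon
    nlinarith
  have he0 : e ≠ 0 := by
    rintro h0
    rw [h0] at hedvd
    have := Nat.eq_zero_of_zero_dvd hedvd
    have := hp.two_le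
    omega
  have he2 : 2 ≤ e := by omega
  have hcard' : Nat.card G = (1 + n * p) * (e * p) := by rw [hcard]; ring
  have hNc' : Nat.card (Subgroup.normalizer ((P : Subgroup G) : Set G)) = e * p := by
    simpa using hNc
  by_cases hp5 : 5 ≤ p
  · obtain ⟨t, ht⟩ := hedvd
    have het : e * t = p - 1 := ht.symm
    have hep : e < p := by
      have : e ≤ e * t := Nat.le_mul_of_pos_right e (by
        rcases Nat.eq_zero_or_pos t with h0 | h0
        · rw [h0] at het; omega
        · exact h0)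
      omega
    obtain ⟨M, hM⟩ := Cfsg.Agent.Lib.Helper82.exists_isPModular p
    obtain ⟨X0, Y0, hblock, hdisj, hcX, hcY, εX0, ε0, hX, hε, hdY, hregY, ht1⟩ :=
      Cfsg.Agent.Lib.Helper22.DOne.core p M hM P hP e hedef
    have hD0 : DOut G p M (P : Subgroup G) e X0 Y0 εX0 ε0 :=
      ⟨hblock, hdisj, hcX, hcY, fun χ hχ => (hX χ hχ).1, fun χ hχ => (hX χ hχ).2.1,
        fun χ hχ => (hX χ hχ).2.2, hε, hdY, hregY, ht1⟩
    obtain ⟨X, Y, εX, ε, hD, htrivX, htrivε⟩ :=
      triv_mem_gen hG p hp5 M hM (P : Subgroup G) hP e ⟨t, ht⟩ X0 Y0 εX0 ε0 hD0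
    have hidx' : (Subgroup.centralizer ((P : Subgroup G) : Set G)).index = (1 + n * p) * e :=
      hidx
    have harith : ∀ χ ∈ X, χ ≠ trivIrr G →
        (εX χ = 1 ∧ charDegree (χ : G → ℂ) = 1 + n * p) ∨
        (εX χ = -1 ∧ charDegree (χ : G → ℂ) = p - 1 ∧ t ∣ n + 1) := by
      intro χ hχ hne
      have hdvd : charDegree (χ : G → ℂ) ∣ (1 + n * p) * e := by
        rw [← hidx']
        refine Cfsg.Agent.Lib.Helper10.BR.deg_dvd p hp (P : Subgroup G) hP χ (εX χ)
          (hD.signX χ hχ) ?_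
        intro x hx hx1
        have := hD.valX χ hχ x hx hx1 1 (Subgroup.one_mem _) (by simp [hp.ne_one])
        simpa using this
      have hsq := deg_sq_lt χ hne
      rw [hcard'] at hsq
      have h2 := Cfsg.Agent.Lib.Helper10.BR.X4.two_le_deg
        (Cfsg.Agent.Lib.Helper10.BR.X4.perfect hG) χ hne
      exact arith_X2 p e t n _ (εX χ) hp hp5 he2 het hn1 hn2 h2 hdvd hsq (hD.signX χ hχ)
        (hD.degX χ hχ)
    obtain ⟨x₀, A, B, Yf, hPre⟩ := exists_gpre hG p hp5 M hM P hP e t n he2 het X Y εX ε hD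
      ⟨htrivX, htrivε⟩ harith
    obtain ⟨D, hTab⟩ := exists_gtab p hp5 M hM P hP e t n ε x₀ A B Yf hPre he2 het hn1 hn2
      hCP hNc' hcard'
      (fun ψ hψ => Cfsg.Agent.Lib.Helper10.BR.mem_principal_of_self_centralizing p M hM P hP
        hCP ψ hψ)
      (fun ψ hψ x hx => Cfsg.Agent.Lib.Helper10.BR.vanish_of_dvd p P hP ψ hψ x hx)
    -- Stage T
    have hF1 := fun x hx hx1 => gsumY hTab x hx hx1
    have hx0dvd := gx0_dvd hTab hF1
    obtain ⟨hDE, hx0sq⟩ := gDE hTab
    have hcase := arith_Y p e t n x₀ ε hp hp5 he2 het hn1 hn2 hTab.x₀_ge hx0dvd hx0sq hTab.hε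
      hTab.modY
    obtain ⟨hnum, hdiv⟩ := arith_DE p e t n x₀ A.card B.card ε hp hp5 he2 het hn1 hTab.cardAB
      (fun hb => hTab.nB (Finset.card_pos.mp hb)) hTab.modY hDE hcase
    -- Stage P
    have hpf := fun g => perm_formula (Subgroup.normalizer ((P : Subgroup G) : Set G)) g
    have havg := fun ψ => psum_avg (P : Subgroup G) ψ
    obtain ⟨hlinA, hlinB, hlinY, hlinD⟩ := glin_vals hTab hF1
    have hreg := fun y hy hyP => pregular_outer_gen p hp (P : Subgroup G) hP hCP e
      (Nat.pos_of_ne_zero he0) hep hNc' y hy hyP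
    have hA := kA_zero hTab hpf
    have hB := kB_zero hTab hlinB havg
    have hY := kY_zero hTab hnum hlinA hlinB hlinY havg hreg hA hB
    have hdeg := sumD_deg hTab hpf hA hB hY
    have hns := num_sq p e t n A.card B.card x₀ ε hp5 he2 het hTab.cardAB hnum
    have hsq := sumD_sq hTab hns
    have hpairs := sum_pairs (Subgroup.normalizer ((P : Subgroup G) : Set G)) hpf
    obtain ⟨hub, heqcase⟩ := pairs_bound p hp (P : Subgroup G) hP hCP e n
      (Nat.pos_of_ne_zero he0) hep hNc' hcard'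
    obtain ⟨hDk, hge⟩ := kD_eq hTab hA hB hY hdeg hsq hpairs hub
    have hinter := heqcase hge
    have hce : ∀ ψ : G → ℂ, IsCharacter G ψ →
        psum (Subgroup.normalizer ((P : Subgroup G) : Set G)) ψ 1 =
          (e : ℂ) * psum (P : Subgroup G) ψ 1 →
        ∀ y ∈ Subgroup.normalizer ((P : Subgroup G) : Set G),
          psum (P : Subgroup G) ψ y = psum (P : Subgroup G) ψ 1 :=
      fun ψ hψ heq => psum_const_of_eq (P : Subgroup G) ψ e (by rw [hNc']; rw [hP])
        (havg ψ)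
        (fun y hy => Cfsg.Agent.Lib.Helper10.BR.psum_bound (P : Subgroup G) ψ hψ y hy) heq
    have hout := fun ψ hψ y hy hyP =>
      psum_outer_gen p hp (P : Subgroup G) hP hCP ψ hψ y hy hyP
    have hDv := D_val hTab hlinD hDk hce hout
    have hcount := fix_count hTab hpf hA hB hY hDk hsq hDv
    obtain ⟨hcomm, hfix, hcls⟩ := frob_basic p hp (P : Subgroup G) hP hCP
    have hcent := fun y hy hyP => cent_outer p hp (P : Subgroup G) hP e
      (Nat.pos_of_ne_zero he0) hep hNc' hcomm hfix y hy hyP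
    obtain ⟨y, hy, hyP⟩ : ∃ y ∈ Subgroup.normalizer ((P : Subgroup G) : Set G),
        y ∉ (P : Subgroup G) := by
      by_contra hcon
      push Not at hcon
      have hle : Subgroup.normalizer ((P : Subgroup G) : Set G) ≤ (P : Subgroup G) := hcon
      have h1 := Subgroup.card_le_of_le hle
      rw [hNc'] at h1
      have h2 : Nat.card (P : Subgroup G) = p := hP
      rw [h2] at h1
      have hp0 := hp.pos
      nlinarith
    have hdec := fun c hc => conj_mem_decomp p hp (P : Subgroup G) hP e he2 hep hNc' hcomm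
      hfix hcls hcent hinter y hy hyP c hc
    have hM' := norm_dvd p hp (P : Subgroup G) hP e n he2 hep hNc' hfix y hy hyP
      (hcount y hy hyP) hdec
    rw [hcard'] at hM' ⊢
    exact final_arith p e t n A.card x₀ ε hp hp5 he2 het hn1 hn2 hnum hdiv hM'
  · -- p ≤ 4: p = 2 or p = 3
    exfalso
    have hp2 := hp.two_le
    have hp3 : p = 2 ∨ p = 3 := by
      have h4 : p ≠ 4 := by rintro rfl; exact absurd hp (by decide)
      omega
    rcases hp3 with rfl | rfl
    · have : e ∣ 1 := hedvd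
      have := Nat.dvd_one.mp this
      omega
    · have h2 : e ∣ 2 := hedvd
      have hle : e ≤ 2 := Nat.le_of_dvd (by norm_num) h2
      have he : e = 2 := by omega
      subst he
      have hle100 : Nat.card G ≤ 100 := by rw [hcard']; omega
      have h60 := Cfsg.Agent.S0493.result hG hle100
      rw [hcard'] at h60
      omega

end Cfsg.Agent.Lib.Helper5.BQ

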