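import Mathlib
import Cfsg.Agent.Lib.Helper10.BT1
import Cfsg.Agent.S0944
import Cfsg.Agent.Lib.Helper81.BWV
import Cfsg.Agent.Lib.Helper81.BWC1
import Cfsg.Agent.Lib.Helper89.BWC2
import Cfsg.Agent.Lib.Helper81.BWC5
import Cfsg.Agent.Lib.Helper28.BWAR3
import Cfsg.Agent.Lib.Helper60.BWAR4
import Cfsg.Agent.Lib.Helper94.BWAR5
import Cfsg.Agent.Lib.Helper20.BWG1
import Cfsg.Agent.Lib.Helper66.BWG2
import Cfsg.Agent.Lib.Helper69.BWA2
import Cfsg.Agent.Lib.Helper16.BWC3
import Cfsg.Agent.Lib.Helper4.BWC4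
import Cfsg.Agent.Lib.Helper49.BWC6
import Cfsg.Agent.Lib.Helper81.BVI

/-!
# S0997 (Brauer–Tuan), cases B1 and B2: `|G| < p ^ 3`

Setting: `G` simple, a Sylow `p`-subgroup `P` of order `p`, principal block data `DOut` with
exceptional sign `ε = -1`, exceptional degree `f` (odd, `< p`), `|G| = p 2^b f`.
A 2-central involution `w`, the class-multiplication count of `w · w = x` (`x ∈ P \ 1`),
Burnside's vanishing lemma and column orthogonality at `w` give `2 ^ b ≤ p`.
-/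

set_option autoImplicit false
set_option maxHeartbeats 1000000

namespace Cfsg.Agent.Lib.Helper5.BW

open Cfsg
open Cfsg.Agent.Lib.Helper83 (trivIrr)
open Cfsg.Agent.Lib.Helper10.BR (DOut)
open scoped ComplexConjugate

universe u

/-- Common setup of the two endgames. -/
theorem endgame_setup {G : Type u} [Group G] [Fintype G] [IsSimpleGroup G] (hG : ¬ IsCyclic G)
    (p b e f : ℕ) [Fact p.Prime] (hp5 : 5 ≤ p) (M : Ideal AlgInt) (hM : IsPModular p M)
    (P : Sylow p G) (hP : Nat.card P = p) (X Y : Set (IrrCharacter G))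
    (εX : IrrCharacter G → ℤ) (hD : DOut G p M (P : Subgroup G) e X Y εX (-1))
    (htriv : trivIrr G ∈ X) (htriv1 : εX (trivIrr G) = 1) (he1 : 1 ≤ (p - 1) / e)
    (hfodd : Odd f) (hfp : f < p)
    (hdegY : ∀ θ ∈ Y, charDegree (θ : G → ℂ) = f)
    (hcard : Nat.card G = p * 2 ^ b * f) (hb : 1 ≤ b) :
    ∃ (θ₀ : IrrCharacter G) (s : Finset (IrrCharacter G)) (x w : G) (a : IrrCharacter G → ℤ)
      (c' N : ℕ), θ₀ ∈ Y ∧ (∀ χ, χ ∈ s ↔ χ ∈ X ∧ χ ≠ trivIrr G) ∧
      Subgroup.centralizer ((P : Subgroup G) : Set G) = (P : Subgroup G) ∧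
      x ∈ (P : Subgroup G) ∧ x ≠ 1 ∧ orderOf w = 2 ∧
      (∀ ψ : IrrCharacter G, (ψ : G → ℂ) w = (a ψ : ℂ)) ∧ 1 ≤ c' ∧
      Nat.card {y : G // IsConj w y} * c' = p * f ∧ (N = 0 ∨ N = p) ∧ a θ₀ ≠ (f : ℤ) ∧
      (1 + ∑ χ ∈ s, (a χ) ^ 2 + ((Nat.card Y : ℕ) : ℤ) * (a θ₀) ^ 2 ≤ ((2 ^ b * c' : ℕ) : ℤ)) ∧
      ((N : ℝ) * ((2 ^ b * c' : ℕ) : ℝ) ^ 2 = ((p * 2 ^ b * f : ℕ) : ℝ) *
        (1 + ∑ χ ∈ s, (εX χ : ℝ) * (a χ : ℝ) ^ 2 / (charDegree (χ : G → ℂ) : ℝ)
          + (a θ₀ : ℝ) ^ 2 / (f : ℝ))) := by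
  classical
  have hp : p.Prime := Fact.out
  have hperf := Cfsg.Agent.Lib.Helper10.BR.BRX1aux.perfect_of_simple hG
  haveI : Finite (IrrCharacter G) := Cfsg.Agent.Lib.Helper82.finite_irrCharacter G
  have hYne : Y.Nonempty := by
    by_contra hcon
    rw [Set.not_nonempty_iff_eq_empty] at hcon
    have := hD.cardY
    rw [hcon] at this
    simp at this
    omega
  obtain ⟨θ₀, hθ₀⟩ := hYne
  have hθne : θ₀ ≠ trivIrr G := by
    rintro rfl
    exact Set.disjoint_left.mp hD.disj htriv hθ₀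
  have hfaith := irr_faithful hG θ₀ hθne
  have hθB : θ₀ ∈ principalBlock M G := by rw [hD.block]; exact Or.inr hθ₀
  have hCP := cent_eq_of_small p M hM hperf P hP θ₀ hθB hfaith (by rw [hdegY θ₀ hθ₀]; omega)
  have hsumY := fun (x : G) (hx : x ∈ (P : Subgroup G)) (hx1 : x ≠ 1) =>
    Cfsg.Agent.Lib.Helper10.BT.exc_sum p M hM (P : Subgroup G) hP e X Y εX (-1) hD he1 x hx hx1
  obtain ⟨x, hx, hx1⟩ : ∃ x ∈ (P : Subgroup G), x ≠ 1 := by
    by_contra hcon
    push Not at hcon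
    have hbot : (P : Subgroup G) = ⊥ := (Subgroup.eq_bot_iff_forall _).mpr hcon
    have h1 : Nat.card (P : Subgroup G) = p := hP
    rw [hbot, Subgroup.card_bot] at h1
    exact hp.one_lt.ne h1
  have hodd : Odd (p * f) := (hp.odd_of_ne_two (by omega)).mul hfodd
  obtain ⟨w, hw2, hdvd⟩ := central_invol (G := G) b (p * f) hb hodd (by rw [hcard]; ring)
  obtain ⟨c', hc'⟩ := hdvd
  have hc'1 : 1 ≤ c' := by
    rcases Nat.eq_zero_or_pos c' with h0 | h0
    · rw [h0, mul_zero] at hc'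
      exact absurd hc' Nat.card_pos.ne'
    · exact h0
  have hw1 : w ≠ 1 := by
    rintro rfl
    rw [orderOf_one] at hw2
    omega
  have hwp : ¬ p ∣ orderOf w := by
    rw [hw2]
    intro h
    have := Nat.le_of_dvd (by norm_num) h
    omega
  have hcl := Cfsg.Agent.Lib.Helper83.card_conj_mul_card_centralizer w
  have hclc : Nat.card {y : G // IsConj w y} * c' = p * f := by
    rw [hc', hcard] at hcl
    have h2 : 0 < 2 ^ b := by positivity
    have : 2 ^ b * (Nat.card {y : G // IsConj w y} * c') = 2 ^ b * (p * f) := by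
      calc 2 ^ b * (Nat.card {y : G // IsConj w y} * c')
          = Nat.card {y : G // IsConj w y} * (2 ^ b * c') := by ring
        _ = p * 2 ^ b * f := hcl
        _ = 2 ^ b * (p * f) := by ring
    exact Nat.eq_of_mul_eq_mul_left h2 this
  choose a ha hapar using fun ψ : IrrCharacter G => Cfsg.Agent.S0944.result ψ w hw2
  let s : Finset (IrrCharacter G) := (Set.toFinite X).toFinset.erase (trivIrr G)
  have hs : ∀ χ, χ ∈ s ↔ χ ∈ X ∧ χ ≠ trivIrr G := by
    intro χ
    simp only [s, Finset.mem_erase, Set.Finite.mem_toFinset]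
    tauto
  have hBr := br_formula p M hM P hP hCP e X Y εX (-1) hD hsumY θ₀ hθ₀ x hx hx1 w hwp
  have hform := count_formula X εX (-1) htriv htriv1 s hs θ₀ x w a ha hBr
  have hYa : ∀ θ ∈ Y, a θ = a θ₀ := by
    intro θ hθ
    have h1 := hD.regY θ hθ θ₀ hθ₀ w hwp
    rw [ha θ, ha θ₀] at h1
    exact_mod_cast h1
  have hcol := col_int X Y hD.disj htriv s hs (Nat.card Y) rfl θ₀ w a ha hYa
  have hN := invert_count p (by omega) P hP hCP x hx hx1 w hw2
  refine ⟨θ₀, s, x, w, a, c', _, hθ₀, hs, hCP, hx, hx1, hw2, ha, hc'1, hclc, hN, ?_, ?_, ?_⟩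
  · intro h
    apply hw1
    apply hfaith
    rw [ha θ₀, h, ← (Cfsg.Agent.Lib.Helper82.irr_charDegree θ₀).1, hdegY θ₀ hθ₀]
    simp
  · rw [hc'] at hcol
    exact_mod_cast hcol
  · rw [hc', hcard, hdegY θ₀ hθ₀] at hform
    rw [hform]
    push_cast
    ring

/-- Case B2 of S0997: `e = 2 ^ c ≥ 4`, `p = 2 e + 1`, exceptional degree `e + 1`. -/
theorem b2 {G : Type u} [Group G] [Finite G] [IsSimpleGroup G] (hG : ¬ IsCyclic G)
    (p c b e : ℕ) [Fact p.Prime] (M : Ideal AlgInt) (hM : IsPModular p M) (P : Sylow p G)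
    (hP : Nat.card P = p) (X Y : Set (IrrCharacter G)) (εX : IrrCharacter G → ℤ)
    (hD : DOut G p M (P : Subgroup G) e X Y εX (-1))
    (htriv : trivIrr G ∈ X) (htriv1 : εX (trivIrr G) = 1)
    (hc : 2 ≤ c) (hec : e = 2 ^ c) (hpe : p = 2 * e + 1)
    (hdegY : ∀ θ ∈ Y, charDegree (θ : G → ℂ) = e + 1)
    (hcard : Nat.card G = p * 2 ^ b * (e + 1)) : Nat.card G < p ^ 3 := by
  classical
  letI : Fintype G := Fintype.ofFinite G
  have hp : p.Prime := Fact.out
  have he4 : 4 ≤ e := by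
    rw [hec]
    calc 4 = 2 ^ 2 := by norm_num
      _ ≤ 2 ^ c := Nat.pow_le_pow_right (by norm_num) hc
  have hp9 : 9 ≤ p := by omega
  have hdiv : (p - 1) / e = 2 := by
    have : p - 1 = e * 2 := by omega
    rw [this, Nat.mul_div_cancel_left _ (by omega : 0 < e)]
  have hlt : e + 1 < p := by omega
  have hfin : ∀ k : ℕ, k ≤ p → p * k * (e + 1) < p ^ 3 := by
    intro k hk
    calc p * k * (e + 1) ≤ p * p * (e + 1) :=
          Nat.mul_le_mul_right _ (Nat.mul_le_mul_left _ hk)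
      _ < p * p * p := Nat.mul_lt_mul_of_pos_left hlt (Nat.mul_pos hp.pos hp.pos)
      _ = p ^ 3 := by ring
  rcases Nat.eq_zero_or_pos b with hb0 | hbpos
  · rw [hcard, hb0]
    exact hfin _ (by simp; omega)
  have hfodd : Odd (e + 1) := by
    rw [hec]
    exact Even.add_one (Nat.even_pow.mpr ⟨even_two, by omega⟩)
  obtain ⟨θ₀, s, x, w, a, c', N, hθ₀, hs, hCP, hx, hx1, hw2, ha, hc'1, hclc, hN, hτ, hcol,
      hform⟩ := endgame_setup hG p b e (e + 1) (by omega) M hM P hP X Y εX hD htriv htriv1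
    (by omega) hfodd hlt hdegY hcard hbpos
  have hperf := Cfsg.Agent.Lib.Helper10.BR.BRX1aux.perfect_of_simple hG
  haveI : Finite (IrrCharacter G) := Cfsg.Agent.Lib.Helper82.finite_irrCharacter G
  have hYcard : Nat.card Y = 2 := by rw [hD.cardY, hdiv]
  obtain ⟨θ₂, hθ₂, h12⟩ : ∃ θ₂ ∈ Y, θ₀ ≠ θ₂ := by
    by_contra hcon
    push Not at hcon
    have hsub : Y ⊆ {θ₀} := fun θ hθ => (hcon θ hθ).symm
    have h1 : Nat.card Y ≤ Nat.card ({θ₀} : Set (IrrCharacter G)) :=
      Nat.card_mono (Set.finite_singleton θ₀) hsub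
    rw [hYcard] at h1
    simp at h1
  have hreg1 : ¬ p ∣ orderOf (1 : G) := by
    rw [orderOf_one]
    exact fun h => hp.one_lt.ne' (Nat.dvd_one.mp h)
  have hw1 : w ≠ 1 := by
    rintro rfl
    rw [orderOf_one] at hw2
    omega
  have hidx : (Subgroup.centralizer ((P : Subgroup G) : Set G)).index = 2 ^ b * (e + 1) := by
    have h1 := Subgroup.card_mul_index (Subgroup.centralizer ((P : Subgroup G) : Set G))
    have hP' : Nat.card (P : Subgroup G) = p := hP
    rw [hCP] at h1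
    rw [hP', hcard] at h1
    rw [hCP]
    have : p * (P : Subgroup G).index = p * (2 ^ b * (e + 1)) := by rw [h1]; ring
    exact Nat.eq_of_mul_eq_mul_left hp.pos this
  have hclodd : Odd (Nat.card {y : G // IsConj w y}) := by
    have hpf : Odd (p * (e + 1)) := (hp.odd_of_ne_two (by omega)).mul hfodd
    rw [← hclc] at hpf
    exact (Nat.odd_mul.mp hpf).1
  have h2b : 2 ^ b ≤ p := by
    refine core_C s a (fun χ => charDegree (χ : G → ℂ)) εX (a θ₀) p b (e + 1) c' N (by omega)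
      (by omega) hc'1 ?_ ?_ ?_ ?_ hN hform
    · intro χ hχ
      exact hD.signX χ ((hs χ).mp hχ).1
    · intro χ hχ hσ
      obtain ⟨hχX, hχne⟩ := (hs χ).mp hχ
      have h2 := Cfsg.Agent.Lib.Helper10.BT.deg_ge_two hperf χ hχne
      have hmod := hD.degX χ hχX
      rw [hσ] at hmod
      have hdvd : (p : ℤ) ∣ (charDegree (χ : G → ℂ) : ℤ) - 1 :=
        Int.modEq_iff_dvd.mp hmod.symm
      have hpos : (0 : ℤ) < (charDegree (χ : G → ℂ) : ℤ) - 1 := by omega
      have := Int.le_of_dvd hpos hdvd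
      show p + 1 ≤ charDegree (χ : G → ℂ)
      omega
    · intro χ hχ hσ
      obtain ⟨hχX, hχne⟩ := (hs χ).mp hχ
      have hval : ∀ y ∈ (P : Subgroup G), y ≠ 1 → (χ : G → ℂ) y = -1 := by
        intro y hy hy1
        have := hD.valX χ hχX y hy hy1 1 (Subgroup.one_mem _) hreg1
        rw [mul_one, hσ] at this
        rw [this]
        simp
      have hb1 := xm_bound p P hP hCP χ θ₀ θ₂ h12 (hD.regY θ₀ hθ₀ θ₂ hθ₂) hval
      rw [hdegY θ₀ hθ₀, hdegY θ₂ hθ₂] at hb1
      have hdd : charDegree (χ : G → ℂ) ∣ 2 ^ b * (e + 1) := by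
        rw [← hidx]
        refine Cfsg.Agent.Lib.Helper10.BR.deg_dvd p hp (P : Subgroup G) hP χ (-1) (Or.inr rfl) ?_
        intro y hy hy1
        rw [hval y hy hy1]
        simp
      have hmod := hD.degX χ hχX
      rw [hσ] at hmod
      have hdeg := fermat_deg p (c + 1) b (e + 1) _ (by omega) (by rw [hpe, hec]; ring)
        (by omega) hdd hmod hb1
      have hcop : Nat.Coprime (charDegree (χ : G → ℂ)) (Nat.card {y : G // IsConj w y}) := by
        rw [hdeg]
        exact Nat.Coprime.pow_left _ (Nat.coprime_two_left.mpr hclodd)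
      have hz := burnside_zero hG χ hχne w hw1 hcop
      rw [ha χ] at hz
      exact_mod_cast hz
    · rw [hYcard] at hcol
      exact_mod_cast hcol
  rw [hcard]
  exact hfin _ h2b

/-- Case B1 of S0997: `e = 2`, exceptional degree `p - 2`. -/
theorem b1 {G : Type u} [Group G] [Finite G] [IsSimpleGroup G] (hG : ¬ IsCyclic G)
    (p b : ℕ) [Fact p.Prime] (hp5 : 5 ≤ p) (M : Ideal AlgInt) (hM : IsPModular p M)
    (P : Sylow p G) (hP : Nat.card P = p) (X Y : Set (IrrCharacter G))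
    (εX : IrrCharacter G → ℤ) (hD : DOut G p M (P : Subgroup G) 2 X Y εX (-1))
    (htriv : trivIrr G ∈ X) (htriv1 : εX (trivIrr G) = 1)
    (hdegY : ∀ θ ∈ Y, charDegree (θ : G → ℂ) = p - 2)
    (hcard : Nat.card G = p * 2 ^ b * (p - 2)) : Nat.card G < p ^ 3 := by
  classical
  letI : Fintype G := Fintype.ofFinite G
  have hp : p.Prime := Fact.out
  have hpodd : Odd p := hp.odd_of_ne_two (by omega)
  obtain ⟨k, hk⟩ := hpodd
  have hdiv : (p - 1) / 2 = k := by omega
  have hlt : p - 2 < p := by omega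
  have hfin : ∀ j : ℕ, j ≤ p → p * j * (p - 2) < p ^ 3 := by
    intro j hj
    calc p * j * (p - 2) ≤ p * p * (p - 2) :=
          Nat.mul_le_mul_right _ (Nat.mul_le_mul_left _ hj)
      _ < p * p * p := Nat.mul_lt_mul_of_pos_left hlt (Nat.mul_pos hp.pos hp.pos)
      _ = p ^ 3 := by ring
  rcases Nat.eq_zero_or_pos b with hb0 | hbpos
  · rw [hcard, hb0]
    exact hfin _ (by simp; omega)
  have hfodd : Odd (p - 2) := ⟨k - 1, by omega⟩
  obtain ⟨θ₀, s, x, w, a, c', N, hθ₀, hs, hCP, hx, hx1, hw2, ha, hc'1, hclc, hN, hτ, hcol,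
      hform⟩ := endgame_setup hG p b 2 (p - 2) hp5 M hM P hP X Y εX hD htriv htriv1
    (by omega) hfodd hlt hdegY hcard hbpos
  haveI : Finite (IrrCharacter G) := Cfsg.Agent.Lib.Helper82.finite_irrCharacter G
  have hYcard : Nat.card Y = k := by rw [hD.cardY, hdiv]
  have hreg1 : ¬ p ∣ orderOf (1 : G) := by
    rw [orderOf_one]
    exact fun h => hp.one_lt.ne' (Nat.dvd_one.mp h)
  have hwp : ¬ p ∣ orderOf w := by
    rw [hw2]
    intro h
    have := Nat.le_of_dvd (by norm_num) h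
    omega
  -- `s` is a singleton
  have hscard : s.card = 1 := by
    have h1 : Nat.card X = (insert (trivIrr G) s).card := by
      rw [← Nat.card_eq_finsetCard]
      apply Nat.card_congr
      refine Equiv.subtypeEquivRight (fun χ => ?_)
      rw [Finset.mem_insert, hs]
      constructor
      · intro h
        by_cases h1 : χ = trivIrr G
        · exact Or.inl h1
        · exact Or.inr ⟨h, h1⟩
      · rintro (rfl | h)
        · exact htriv
        · exact h.1
    rw [hD.cardX, Finset.card_insert_of_notMem (fun h => ((hs _).mp h).2 rfl)] at h1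
    omega
  obtain ⟨χ, hχ⟩ := Finset.card_eq_one.mp hscard
  -- degree equation
  have hdeg1 := t1_int p M (P : Subgroup G) 2 X Y εX (-1) hD htriv htriv1 s hs θ₀ hθ₀ 1 hreg1
    (fun ψ => (charDegree (ψ : G → ℂ) : ℤ))
    (fun ψ => by rw [← (Cfsg.Agent.Lib.Helper82.irr_charDegree ψ).1]; simp)
  rw [hχ, Finset.sum_singleton, hdegY θ₀ hθ₀] at hdeg1
  have hχs : χ ∈ s := by rw [hχ]; exact Finset.mem_singleton_self χ
  have hsign := hD.signX χ ((hs χ).mp hχs).1
  have hp2 : ((p - 2 : ℕ) : ℤ) = (p : ℤ) - 2 := by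
    rw [Nat.cast_sub (by omega)]
    simp
  have hσ : εX χ = -1 := by
    rcases hsign with h | h
    · exfalso
      rw [h, hp2] at hdeg1
      have : (0 : ℤ) ≤ (charDegree (χ : G → ℂ) : ℤ) := Int.natCast_nonneg _
      have hpz : (5 : ℤ) ≤ p := by exact_mod_cast hp5
      linarith
    · exact h
  have hdegχ : charDegree (χ : G → ℂ) = p - 1 := by
    rw [hσ, hp2] at hdeg1
    have hpz : (5 : ℤ) ≤ p := by exact_mod_cast hp5
    have : (charDegree (χ : G → ℂ) : ℤ) = (p : ℤ) - 1 := by linarith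
    omega
  -- the relation at `w`
  have hrel := t1_int p M (P : Subgroup G) 2 X Y εX (-1) hD htriv htriv1 s hs θ₀ hθ₀ w hwp a ha
  rw [hχ, Finset.sum_singleton, hσ] at hrel
  have haχ : a χ = 1 + a θ₀ := by linarith
  have h2b : 2 ^ b ≤ p := by
    refine core_B (a χ) (a θ₀) p b (p - 2) k c' N hp5 rfl (by omega) hc'1 haχ hτ ?_ hN ?_
    · rw [hχ, Finset.sum_singleton, hYcard] at hcol
      exact hcol
    · rw [hχ, Finset.sum_singleton, hσ, hdegχ] at hform
      rw [hform]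
      push_cast
      ring
  rw [hcard]
  exact hfin _ h2b

/-- Case B1 in the exact form of helper81's interface. -/
theorem b1_stmt : Cfsg.Agent.Lib.Helper81.BV.B1Stmt.{u} := by
  intro G _ _ _ hG p b _ M hM P hP _ X Y εX hD htriv htriv1 hp5 hdegY hcard
  exact b1 hG p b hp5 M hM P hP X Y εX hD htriv htriv1 hdegY hcard

/-- Case B2 in the exact form of helper81's interface. -/
theorem b2_stmt : Cfsg.Agent.Lib.Helper81.BV.B2Stmt.{u} := by
  intro G _ _ _ hG p b c e _ M hM P hP _ X Y εX hD htriv htriv1 hc hec hpe hdegY hcard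
  exact b2 hG p c b e M hM P hP X Y εX hD htriv htriv1 hc hec hpe hdegY hcard

end Cfsg.Agent.Lib.Helper5.BW
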