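import Mathlib

/-!
# Dihedral subgroups generated by a rotation and a reflection (helper5)

`σ` of finite order `m`, `τ` an involution with `τ σ τ⁻¹ = σ⁻¹`: normal forms in
`closure {σ, τ}`, its involutions, conjugation formulas, and the isomorphism with
`DihedralGroup m`.
-/

set_option autoImplicit false

namespace Cfsg.Agent.Lib.Helper5

open Subgroup

section DihA

variable {G : Type*} [Group G] {σ τ : G}

theorem dh_tau_inv (hτo : orderOf τ = 2) : τ⁻¹ = τ := by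
  have h : τ ^ 2 = 1 := by rw [← hτo]; exact pow_orderOf_eq_one τ
  rw [inv_eq_iff_mul_eq_one, ← sq]
  exact h

theorem dh_tau_sq (hτo : orderOf τ = 2) : τ * τ = 1 := by
  have h : τ ^ 2 = 1 := by rw [← hτo]; exact pow_orderOf_eq_one τ
  rwa [sq] at h

/-- `τ x⁻¹ = x τ` when `τ` inverts `x` -/
theorem dh_swap {x : G} (h : τ * x * τ⁻¹ = x⁻¹) : τ * x⁻¹ = x * τ := by
  have h2 : τ * x⁻¹ * τ⁻¹ = (τ * x * τ⁻¹)⁻¹ := by group
  have h3 : τ * x⁻¹ * τ⁻¹ = x := by rw [h2, h, inv_inv]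
  exact mul_inv_eq_iff_eq_mul.mp h3

theorem dh_conj_pow (hrel : τ * σ * τ⁻¹ = σ⁻¹) (i : ℕ) : τ * σ ^ i * τ⁻¹ = (σ ^ i)⁻¹ := by
  have h := map_pow (MulAut.conj τ) σ i
  simp only [MulAut.conj_apply] at h
  rw [h, hrel, inv_pow]

theorem dh_tau_pow (hrel : τ * σ * τ⁻¹ = σ⁻¹) (i : ℕ) : τ * σ ^ i = (σ ^ i)⁻¹ * τ :=
  mul_inv_eq_iff_eq_mul.mp (dh_conj_pow hrel i)

theorem dh_inv_pow {m : ℕ} (hm : σ ^ m = 1) (hm1 : 1 ≤ m) (j : ℕ) :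
    (σ ^ j)⁻¹ = σ ^ (j * (m - 1)) := by
  rw [inv_eq_iff_mul_eq_one, ← pow_add]
  have h : j + j * (m - 1) = m * j := by
    obtain ⟨k, rfl⟩ : ∃ k, m = k + 1 := ⟨m - 1, by omega⟩
    simp only [Nat.add_sub_cancel]
    ring
  rw [h, pow_mul, hm, one_pow]

/-- Normal form of the elements of `closure {σ, τ}`. -/
theorem dh_mem {m : ℕ} (hm : σ ^ m = 1) (hm1 : 1 ≤ m) (hτo : orderOf τ = 2)
    (hrel : τ * σ * τ⁻¹ = σ⁻¹) {x : G} (hx : x ∈ closure ({σ, τ} : Set G)) :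
    ∃ i : ℕ, x = σ ^ i ∨ x = σ ^ i * τ := by
  have hti := dh_tau_inv hτo
  have htt : τ * τ = 1 := dh_tau_sq hτo
  induction hx using closure_induction with
  | mem y hy =>
    rcases hy with rfl | hy
    · exact ⟨1, Or.inl (pow_one _).symm⟩
    · rw [Set.mem_singleton_iff] at hy
      subst hy
      exact ⟨0, Or.inr (by rw [pow_zero, one_mul])⟩
  | one => exact ⟨0, Or.inl (pow_zero _).symm⟩
  | mul a b _ _ ha hb =>
    obtain ⟨i, rfl | rfl⟩ := ha <;> obtain ⟨j, rfl | rfl⟩ := hb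
    · exact ⟨i + j, Or.inl (pow_add _ _ _).symm⟩
    · exact ⟨i + j, Or.inr (by rw [pow_add, mul_assoc])⟩
    · refine ⟨i + j * (m - 1), Or.inr ?_⟩
      rw [pow_add, ← dh_inv_pow hm hm1 j, mul_assoc, dh_tau_pow hrel j, mul_assoc]
    · refine ⟨i + j * (m - 1), Or.inl ?_⟩
      rw [pow_add, ← dh_inv_pow hm hm1 j]
      calc σ ^ i * τ * (σ ^ j * τ) = σ ^ i * (τ * σ ^ j) * τ := by group
        _ = σ ^ i * ((σ ^ j)⁻¹ * τ) * τ := by rw [dh_tau_pow hrel j]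
        _ = σ ^ i * (σ ^ j)⁻¹ * (τ * τ) := by group
        _ = σ ^ i * (σ ^ j)⁻¹ := by rw [htt, mul_one]
  | inv a _ ha =>
    obtain ⟨i, rfl | rfl⟩ := ha
    · exact ⟨i * (m - 1), Or.inl (dh_inv_pow hm hm1 i)⟩
    · refine ⟨i, Or.inr ?_⟩
      rw [mul_inv_rev, hti]
      exact dh_swap (dh_conj_pow hrel i)

theorem dh_tau_not_mem (_hτo : orderOf τ = 2) (hrel : τ * σ * τ⁻¹ = σ⁻¹) (hσ2 : σ * σ ≠ 1) :
    τ ∉ zpowers σ := by
  intro h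
  obtain ⟨k, hk⟩ := mem_zpowers_iff.mp h
  have hc : τ * σ = σ * τ := by
    rw [← hk]
    exact ((Commute.refl σ).zpow_left k).eq
  apply hσ2
  have h1 : τ * σ * τ⁻¹ = σ := by rw [hc]; group
  rw [h1] at hrel
  calc σ * σ = σ * σ⁻¹ := by rw [← hrel]
    _ = 1 := mul_inv_cancel σ

theorem dh_refl_ne_one (hτo : orderOf τ = 2) (hrel : τ * σ * τ⁻¹ = σ⁻¹) (hσ2 : σ * σ ≠ 1)
    (i : ℕ) : σ ^ i * τ ≠ 1 := by
  intro h
  apply dh_tau_not_mem hτo hrel hσ2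
  have h1 : τ = (σ ^ i)⁻¹ := by
    rw [eq_comm, inv_eq_iff_mul_eq_one]
    exact h
  rw [h1]
  exact inv_mem (pow_mem (mem_zpowers σ) i)

theorem dh_refl_sq (hτo : orderOf τ = 2) (hrel : τ * σ * τ⁻¹ = σ⁻¹) (i : ℕ) :
    σ ^ i * τ * (σ ^ i * τ) = 1 := by
  have hti := dh_tau_inv hτo
  have htt : τ * τ = 1 := dh_tau_sq hτo
  calc σ ^ i * τ * (σ ^ i * τ) = σ ^ i * (τ * σ ^ i) * τ := by group
    _ = σ ^ i * ((σ ^ i)⁻¹ * τ) * τ := by rw [dh_tau_pow hrel i]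
    _ = τ * τ := by group
    _ = 1 := htt

theorem dh_refl_order (hτo : orderOf τ = 2) (hrel : τ * σ * τ⁻¹ = σ⁻¹) (hσ2 : σ * σ ≠ 1)
    (i : ℕ) : orderOf (σ ^ i * τ) = 2 := by
  apply orderOf_eq_prime
  · rw [sq]; exact dh_refl_sq hτo hrel i
  · exact dh_refl_ne_one hτo hrel hσ2 i

/-- The only involution among the powers of `σ` (of even order `m`) is `σ ^ (m / 2)`. -/
theorem dh_invol_pow {m : ℕ} (hσo : orderOf σ = m) (hev : Even m) (i : ℕ)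
    (hi : orderOf (σ ^ i) = 2) : σ ^ i = σ ^ (m / 2) := by
  obtain ⟨h, rfl⟩ := hev
  have hh : (h + h) / 2 = h := by omega
  rw [hh]
  have h1 : (σ ^ i) ^ 2 = 1 := by rw [← hi]; exact pow_orderOf_eq_one _
  rw [← pow_mul] at h1
  have h2 : h + h ∣ i * 2 := by rw [← hσo]; exact orderOf_dvd_of_pow_eq_one h1
  have h3 : h ∣ i := by
    obtain ⟨c, hc⟩ := h2
    exact ⟨c, by nlinarith⟩
  obtain ⟨q, rfl⟩ := h3
  have hne : σ ^ (h * q) ≠ 1 := by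
    intro h0
    rw [h0, orderOf_one] at hi
    omega
  rcases Nat.even_or_odd q with ⟨r, rfl⟩ | ⟨r, rfl⟩
  · exfalso
    apply hne
    have : h * (r + r) = (h + h) * r := by ring
    rw [this, pow_mul, ← hσo, pow_orderOf_eq_one, one_pow]
  · have : h * (2 * r + 1) = (h + h) * r + h := by ring
    rw [this, pow_add, pow_mul, ← hσo, pow_orderOf_eq_one, one_pow, one_mul]

/-- The involutions of `closure {σ, τ}`. -/
theorem dh_invol {m : ℕ} (hσo : orderOf σ = m) (hev : Even m) (hm1 : 1 ≤ m)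
    (hτo : orderOf τ = 2) (hrel : τ * σ * τ⁻¹ = σ⁻¹) {x : G}
    (hx : x ∈ closure ({σ, τ} : Set G)) (hxo : orderOf x = 2) :
    x = σ ^ (m / 2) ∨ ∃ i : ℕ, x = σ ^ i * τ := by
  have hm : σ ^ m = 1 := by rw [← hσo]; exact pow_orderOf_eq_one σ
  obtain ⟨i, rfl | rfl⟩ := dh_mem hm hm1 hτo hrel hx
  · exact Or.inl (dh_invol_pow hσo hev i hxo)
  · exact Or.inr ⟨i, rfl⟩

theorem dh_conj_sigma_refl (hrel : τ * σ * τ⁻¹ = σ⁻¹) (i : ℕ) :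
    σ * (σ ^ i * τ) * σ⁻¹ = σ ^ (i + 2) * τ := by
  have h1 : τ * σ⁻¹ = σ * τ := dh_swap hrel
  calc σ * (σ ^ i * τ) * σ⁻¹ = σ * σ ^ i * (τ * σ⁻¹) := by group
    _ = σ * σ ^ i * (σ * τ) := by rw [h1]
    _ = σ ^ (i + 2) * τ := by
      rw [pow_add, pow_two]
      have : σ * σ ^ i = σ ^ i * σ := (Commute.self_pow σ i).eq
      rw [this]; group

/-- Conjugation by elements of the dihedral group on the rotations. -/
theorem dh_conj_rot {m : ℕ} (hm : σ ^ m = 1) (hm1 : 1 ≤ m) (hτo : orderOf τ = 2)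
    (hrel : τ * σ * τ⁻¹ = σ⁻¹) {q : G} (hq : q ∈ closure ({σ, τ} : Set G)) (k : ℕ) :
    q * σ ^ k * q⁻¹ = σ ^ k ∨ q * σ ^ k * q⁻¹ = (σ ^ k)⁻¹ := by
  obtain ⟨i, rfl | rfl⟩ := dh_mem hm hm1 hτo hrel hq
  · left
    have : σ ^ i * σ ^ k = σ ^ k * σ ^ i := (Commute.pow_pow_self σ i k).eq
    rw [this]; group
  · right
    have h1 : σ ^ i * τ * σ ^ k * (σ ^ i * τ)⁻¹ = σ ^ i * (τ * σ ^ k * τ⁻¹) * (σ ^ i)⁻¹ := by
      group
    rw [h1, dh_conj_pow hrel k]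
    have : σ ^ i * (σ ^ k)⁻¹ = (σ ^ k)⁻¹ * σ ^ i :=
      ((Commute.pow_pow_self σ i k).inv_right).eq
    rw [this]; group

/-- Conjugates of `τ` in the dihedral group are the even reflections. -/
theorem dh_conj_tau {m : ℕ} (hm : σ ^ m = 1) (hm1 : 1 ≤ m) (hτo : orderOf τ = 2)
    (hrel : τ * σ * τ⁻¹ = σ⁻¹) {q : G} (hq : q ∈ closure ({σ, τ} : Set G)) :
    ∃ a : ℕ, q * τ * q⁻¹ = σ ^ (2 * a) * τ := by
  have hti := dh_tau_inv hτo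
  have key : ∀ i : ℕ, σ ^ i * τ * (σ ^ i)⁻¹ = σ ^ (2 * i) * τ := by
    intro i
    have h1 : τ * (σ ^ i)⁻¹ = σ ^ i * τ := dh_swap (dh_conj_pow hrel i)
    rw [mul_assoc, h1, two_mul, pow_add, mul_assoc]
  obtain ⟨i, rfl | rfl⟩ := dh_mem hm hm1 hτo hrel hq
  · exact ⟨i, key i⟩
  · refine ⟨i, ?_⟩
    have h1 : σ ^ i * τ * τ * (σ ^ i * τ)⁻¹ = σ ^ i * τ * (σ ^ i)⁻¹ := by
      rw [mul_inv_rev, hti]
      have htt : τ * τ = 1 := dh_tau_sq hτo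
      calc σ ^ i * τ * τ * (τ * (σ ^ i)⁻¹) = σ ^ i * (τ * τ) * τ * (σ ^ i)⁻¹ := by group
        _ = σ ^ i * τ * (σ ^ i)⁻¹ := by rw [htt, mul_one]
    rw [h1, key i]

/-- Every reflection is conjugate, under a power of `σ`, to `τ` or to `σ τ`. -/
theorem dh_refl_conj (hrel : τ * σ * τ⁻¹ = σ⁻¹) (i : ℕ) :
    ∃ j : ℕ, σ ^ i * τ = σ ^ j * τ * (σ ^ j)⁻¹ ∨ σ ^ i * τ = σ ^ j * (σ * τ) * (σ ^ j)⁻¹ := by
  have key : ∀ j : ℕ, σ ^ j * τ * (σ ^ j)⁻¹ = σ ^ (2 * j) * τ := by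
    intro j
    have h1 : τ * (σ ^ j)⁻¹ = σ ^ j * τ := dh_swap (dh_conj_pow hrel j)
    rw [mul_assoc, h1, two_mul, pow_add, mul_assoc]
  rcases Nat.even_or_odd' i with ⟨j, rfl | rfl⟩
  · exact ⟨j, Or.inl (key j).symm⟩
  · refine ⟨j, Or.inr ?_⟩
    have h2 : σ ^ j * (σ * τ) * (σ ^ j)⁻¹ = σ * (σ ^ j * τ * (σ ^ j)⁻¹) := by
      have : σ ^ j * σ = σ * σ ^ j := (Commute.pow_self σ j).eq
      calc σ ^ j * (σ * τ) * (σ ^ j)⁻¹ = (σ ^ j * σ) * τ * (σ ^ j)⁻¹ := by group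
        _ = (σ * σ ^ j) * τ * (σ ^ j)⁻¹ := by rw [this]
        _ = σ * (σ ^ j * τ * (σ ^ j)⁻¹) := by group
    rw [h2, key j, ← mul_assoc, ← pow_succ', ]

/-- Product of two reflections. -/
theorem dh_refl_mul {m : ℕ} (hm : σ ^ m = 1) (hm1 : 1 ≤ m) (hτo : orderOf τ = 2)
    (hrel : τ * σ * τ⁻¹ = σ⁻¹) (i j : ℕ) :
    σ ^ i * τ * (σ ^ j * τ) = σ ^ (i + j * (m - 1)) := by
  have htt : τ * τ = 1 := dh_tau_sq hτo
  rw [pow_add, ← dh_inv_pow hm hm1 j]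
  calc σ ^ i * τ * (σ ^ j * τ) = σ ^ i * (τ * σ ^ j) * τ := by group
    _ = σ ^ i * ((σ ^ j)⁻¹ * τ) * τ := by rw [dh_tau_pow hrel j]
    _ = σ ^ i * (σ ^ j)⁻¹ * (τ * τ) := by group
    _ = σ ^ i * (σ ^ j)⁻¹ := by rw [htt, mul_one]

end DihA

section Mon

theorem dh_pow_mod' {M : Type*} [Monoid M] {x : M} {m : ℕ} (hm : x ^ m = 1) (k : ℕ) :
    x ^ (k % m) = x ^ k := by
  conv_rhs => rw [← Nat.mod_add_div k m]
  rw [pow_add, pow_mul, hm, one_pow, mul_one]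

end Mon

end Cfsg.Agent.Lib.Helper5
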