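import Mathlib
import Cfsg.Agent.Lib.Helper5.DihA

/-!
# `closure {σ, τ}` is dihedral (helper5)
-/

set_option autoImplicit false

namespace Cfsg.Agent.Lib.Helper5

open Subgroup

section DihIso

variable {G : Type*} [Group G] {σ τ : G}

theorem dh_pow_mod {m : ℕ} (hm : σ ^ m = 1) (k : ℕ) : σ ^ (k % m) = σ ^ k :=
  dh_pow_mod' hm k

/-- the map `DihedralGroup m → G` -/
def dhMap (σ τ : G) (m : ℕ) : DihedralGroup m → G
  | DihedralGroup.r i => σ ^ i.val
  | DihedralGroup.sr i => τ * σ ^ i.val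

theorem dh_pow_val_add {m : ℕ} [NeZero m] (hm : σ ^ m = 1) (i j : ZMod m) :
    σ ^ (i + j).val = σ ^ i.val * σ ^ j.val := by
  rw [ZMod.val_add, dh_pow_mod hm, pow_add]

theorem dh_pow_val_sub {m : ℕ} [NeZero m] (hm : σ ^ m = 1) (i j : ZMod m) :
    σ ^ (j - i).val = (σ ^ i.val)⁻¹ * σ ^ j.val := by
  have h := dh_pow_val_add hm i (j - i)
  rw [add_sub_cancel] at h
  rw [h, inv_mul_cancel_left]

theorem dhMap_mul {m : ℕ} [NeZero m] (hm : σ ^ m = 1) (hτo : orderOf τ = 2)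
    (hrel : τ * σ * τ⁻¹ = σ⁻¹) (a b : DihedralGroup m) :
    dhMap σ τ m (a * b) = dhMap σ τ m a * dhMap σ τ m b := by
  have htt := dh_tau_sq hτo
  cases a with
  | r i =>
    cases b with
    | r j =>
      rw [DihedralGroup.r_mul_r]
      exact dh_pow_val_add hm i j
    | sr j =>
      rw [DihedralGroup.r_mul_sr]
      show τ * σ ^ (j - i).val = σ ^ i.val * (τ * σ ^ j.val)
      rw [dh_pow_val_sub hm, ← mul_assoc, ← mul_assoc, dh_swap (dh_conj_pow hrel i.val)]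
  | sr i =>
    cases b with
    | r j =>
      rw [DihedralGroup.sr_mul_r]
      show τ * σ ^ (i + j).val = τ * σ ^ i.val * σ ^ j.val
      rw [dh_pow_val_add hm, mul_assoc]
    | sr j =>
      rw [DihedralGroup.sr_mul_sr]
      show σ ^ (j - i).val = τ * σ ^ i.val * (τ * σ ^ j.val)
      rw [dh_pow_val_sub hm, dh_tau_pow hrel i.val]
      calc (σ ^ i.val)⁻¹ * σ ^ j.val = (σ ^ i.val)⁻¹ * 1 * σ ^ j.val := by rw [mul_one]
        _ = (σ ^ i.val)⁻¹ * (τ * τ) * σ ^ j.val := by rw [htt]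
        _ = (σ ^ i.val)⁻¹ * τ * (τ * σ ^ j.val) := by group

/-- the homomorphism `DihedralGroup m →* G` -/
def dhHom {m : ℕ} [NeZero m] (hm : σ ^ m = 1) (hτo : orderOf τ = 2)
    (hrel : τ * σ * τ⁻¹ = σ⁻¹) : DihedralGroup m →* G :=
  MonoidHom.mk' (dhMap σ τ m) (dhMap_mul hm hτo hrel)

theorem dhHom_injective {m : ℕ} [NeZero m] (hσo : orderOf σ = m) (hτo : orderOf τ = 2)
    (hrel : τ * σ * τ⁻¹ = σ⁻¹) (hσ2 : σ * σ ≠ 1) :
    Function.Injective (dhHom (m := m) (by rw [← hσo]; exact pow_orderOf_eq_one σ) hτo hrel) := by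
  rw [injective_iff_map_eq_one]
  intro a ha
  cases a with
  | r i =>
    have h1 : σ ^ i.val = 1 := ha
    have h2 : m ∣ i.val := by
      have h0 : orderOf σ ∣ i.val := orderOf_dvd_of_pow_eq_one h1
      exact hσo.symm ▸ h0
    have h3 : i.val = 0 := Nat.eq_zero_of_dvd_of_lt h2 (ZMod.val_lt i)
    rw [DihedralGroup.one_def]
    congr 1
    exact (ZMod.val_eq_zero i).mp h3
  | sr i =>
    exfalso
    have h1 : τ * σ ^ i.val = 1 := ha
    apply dh_tau_not_mem hτo hrel hσ2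
    have h2 : τ = (σ ^ i.val)⁻¹ := eq_inv_of_mul_eq_one_left h1
    rw [h2]
    exact inv_mem (pow_mem (mem_zpowers σ) _)

theorem dhHom_range {m : ℕ} [NeZero m] (hσo : orderOf σ = m) (hm2 : 2 ≤ m) (hτo : orderOf τ = 2)
    (hrel : τ * σ * τ⁻¹ = σ⁻¹) :
    (dhHom (m := m) (by rw [← hσo]; exact pow_orderOf_eq_one σ) hτo hrel).range =
      closure ({σ, τ} : Set G) := by
  apply le_antisymm
  · rintro _ ⟨a, rfl⟩
    have hσc : σ ∈ closure ({σ, τ} : Set G) := subset_closure (Set.mem_insert _ _)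
    have hτc : τ ∈ closure ({σ, τ} : Set G) :=
      subset_closure (Set.mem_insert_of_mem _ rfl)
    cases a with
    | r i => exact pow_mem hσc _
    | sr i => exact mul_mem hτc (pow_mem hσc _)
  · rw [closure_le]
    rintro x (rfl | hx)
    · refine ⟨DihedralGroup.r 1, ?_⟩
      show x ^ (1 : ZMod m).val = x
      have : Fact (1 < m) := ⟨by omega⟩
      rw [ZMod.val_one, pow_one]
    · rw [Set.mem_singleton_iff] at hx
      subst hx
      refine ⟨DihedralGroup.sr 0, ?_⟩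
      show x * σ ^ (0 : ZMod m).val = x
      rw [ZMod.val_zero, pow_zero, mul_one]

/-- `closure {σ, τ}` is dihedral of order `2 m`. -/
theorem dh_iso {m : ℕ} (hσo : orderOf σ = m) (hm2 : 2 ≤ m) (hτo : orderOf τ = 2)
    (hrel : τ * σ * τ⁻¹ = σ⁻¹) (hσ2 : σ * σ ≠ 1) :
    Nonempty (↥(closure ({σ, τ} : Set G)) ≃* DihedralGroup m) := by
  haveI : NeZero m := ⟨by omega⟩
  have e1 := MonoidHom.ofInjective (dhHom_injective hσo hτo hrel hσ2)
  have e2 := MulEquiv.subgroupCongr (dhHom_range hσo hm2 hτo hrel)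
  exact ⟨(e1.trans e2).symm⟩

theorem dh_card {m : ℕ} (hσo : orderOf σ = m) (hm2 : 2 ≤ m) (hτo : orderOf τ = 2)
    (hrel : τ * σ * τ⁻¹ = σ⁻¹) (hσ2 : σ * σ ≠ 1) :
    Nat.card ↥(closure ({σ, τ} : Set G)) = 2 * m := by
  obtain ⟨e⟩ := dh_iso hσo hm2 hτo hrel hσ2
  rw [Nat.card_congr e.toEquiv, DihedralGroup.nat_card]

end DihIso

end Cfsg.Agent.Lib.Helper5
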