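import Mathlib
import Cfsg.Agent.Lib.Helper4.FCDefs

/-!
# Project FC (helper4, S4146): piece L3 (helper5)

Commuting elements of coprime orders: `C(xy) = C(x) ∩ C(y)`.
-/

set_option autoImplicit false

namespace Cfsg.Agent.Lib.Helper4.FC

universe u

/-- for commuting `x`, `y` of coprime orders, `x` is a power of `x * y` -/
theorem l3_helper5_pow_mem {G : Type u} [Group G] (x y : G) (hc : Commute x y)
    (hco : (orderOf x).Coprime (orderOf y)) : ∃ k : ℤ, (x * y) ^ k = x := by
  have h1 : (x * y) ^ (orderOf y) = x ^ (orderOf y) := by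
    rw [hc.mul_pow, pow_orderOf_eq_one, mul_one]
  have hb := Nat.gcd_eq_gcd_ab (orderOf x) (orderOf y)
  refine ⟨(orderOf y : ℤ) * Nat.gcdB (orderOf x) (orderOf y), ?_⟩
  rw [zpow_mul, zpow_natCast, h1, ← zpow_natCast, ← zpow_mul]
  have h2 : (orderOf y : ℤ) * Nat.gcdB (orderOf x) (orderOf y)
      = 1 - orderOf x * Nat.gcdA (orderOf x) (orderOf y) := by
    have h3 : ((orderOf x).gcd (orderOf y) : ℤ) = 1 := by
      rw [Nat.Coprime.gcd_eq_one hco]; rfl
    linarith
  rw [h2, zpow_sub, zpow_one, zpow_mul, zpow_natCast, pow_orderOf_eq_one, one_zpow, inv_one,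
    mul_one]

theorem fc_l3 : L3Stmt.{u} := by
  intro G _ _ x y hc hco
  apply le_antisymm
  · intro g hg
    rw [Subgroup.mem_centralizer_iff] at hg
    have hg' : Commute (x * y) g := hg (x * y) (Set.mem_singleton _)
    obtain ⟨k, hk⟩ := l3_helper5_pow_mem x y hc hco
    obtain ⟨l, hl⟩ := l3_helper5_pow_mem y x hc.symm hco.symm
    rw [hc.symm.eq] at hl
    refine Subgroup.mem_inf.mpr ⟨?_, ?_⟩
    · rw [Subgroup.mem_centralizer_iff]
      intro h hh
      rw [Set.mem_singleton_iff] at hh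
      rw [hh, ← hk]
      exact (hg'.zpow_left k).eq
    · rw [Subgroup.mem_centralizer_iff]
      intro h hh
      rw [Set.mem_singleton_iff] at hh
      rw [hh, ← hl]
      exact (hg'.zpow_left l).eq
  · intro g hg
    obtain ⟨h1, h2⟩ := Subgroup.mem_inf.mp hg
    rw [Subgroup.mem_centralizer_iff] at h1 h2 ⊢
    intro h hh
    rw [Set.mem_singleton_iff] at hh
    have e1 := h1 x rfl
    have e2 := h2 y rfl
    rw [hh, mul_assoc, e2, ← mul_assoc, e1, mul_assoc]

end Cfsg.Agent.Lib.Helper4.FC
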