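import Mathlib
import Cfsg.Agent.Lib.Helper4.FCDefs

/-!
# Project FC (helper4, S4146): piece LFK2 (helper5)

`K = CHA A H`, `y ∈ A` of class size `m`, `k ∈ K`: `cs (y k) = m |K : C_K(k)|`.
-/

set_option autoImplicit false

namespace Cfsg.Agent.Lib.Helper4.FC

universe u

/-- if `A` is normal, `A H = G` and `A ≤ C` then `|G : C| = |H : C ∩ H|` -/
theorem lfk2_helper5_index {G : Type u} [Group G] (A H C : Subgroup G) [hA : A.Normal]
    (hAH : A ⊔ H = ⊤) (hAC : A ≤ C) : C.index = C.relIndex H := by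
  have h1 := Subgroup.relIndex_map_map (QuotientGroup.mk' A) C H
  rw [QuotientGroup.ker_mk', sup_eq_left.mpr hAC, sup_comm, hAH, Subgroup.relIndex_top_right] at h1
  have h2 := Subgroup.relIndex_comap (Subgroup.map (QuotientGroup.mk' A) C) (QuotientGroup.mk' A) H
  rw [Subgroup.comap_map_eq, QuotientGroup.ker_mk', sup_eq_left.mpr hAC] at h2
  rw [h2, h1]

theorem fc_lfk2 : LF2Stmt.{u} → L3Stmt.{u} → LFK1Stmt.{u} → LFK2Stmt.{u} := by
  intro hLF2 hL3 hLFK1 G _ _ n m A H y k hctx hyA hym hk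
  have hctx' := hctx
  obtain ⟨hfour, hAn, hAab, hcop, hAHinf, hAHsup, hAcs, hrel⟩ := hctx'
  have := hAn
  have hk' : k ∈ H ⊓ Subgroup.centralizer (A : Set G) := hk
  have hkH : k ∈ H := (Subgroup.mem_inf.mp hk').1
  have hkC : k ∈ Subgroup.centralizer (A : Set G) := (Subgroup.mem_inf.mp hk').2
  have hkcomm : ∀ u ∈ A, u * k = k * u := fun u hu => Subgroup.mem_centralizer_iff.mp hkC u hu
  have hcardH : A.index = Nat.card H := by
    rw [lfk2_helper5_index A H A hAHsup le_rfl, ← Subgroup.inf_relIndex_right, hAHinf,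
      Subgroup.relIndex_bot_left]
  have hord : (orderOf y).Coprime (orderOf k) := by
    have h1 : orderOf y ∣ Nat.card A := A.orderOf_dvd_natCard hyA
    have h2 : orderOf k ∣ A.index := by rw [hcardH]; exact H.orderOf_dvd_natCard hkH
    exact Nat.Coprime.coprime_dvd_left h1 (Nat.Coprime.coprime_dvd_right h2 hcop)
  have hC : Cen (y * k) = Cen y ⊓ Cen k := hL3 G y k (hkcomm y hyA) hord
  have hAC : A ≤ Cen y ⊓ Cen k := by
    intro u hu
    refine Subgroup.mem_inf.mpr ⟨?_, ?_⟩
    · rw [Subgroup.mem_centralizer_iff]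
      intro h hh
      rw [Set.mem_singleton_iff] at hh
      rw [hh]; exact hAab y hyA u hu
    · rw [Subgroup.mem_centralizer_iff]
      intro h hh
      rw [Set.mem_singleton_iff] at hh
      rw [hh]; exact (hkcomm u hu).symm
  have hK : Cen y ⊓ H = CHA A H := by
    apply le_antisymm
    · intro h hh
      obtain ⟨h1, h2⟩ := Subgroup.mem_inf.mp hh
      have h3 : h * y = y * h := (Subgroup.mem_centralizer_iff.mp h1 y rfl).symm
      exact hLF2 G n m A H h y hctx h2 hyA hym h3
    · intro h hh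
      have hh' : h ∈ H ⊓ Subgroup.centralizer (A : Set G) := hh
      obtain ⟨h1, h2⟩ := Subgroup.mem_inf.mp hh'
      refine Subgroup.mem_inf.mpr ⟨?_, h1⟩
      rw [Subgroup.mem_centralizer_iff]
      intro z hz
      rw [Set.mem_singleton_iff] at hz
      rw [hz]; exact Subgroup.mem_centralizer_iff.mp h2 y hyA
  have hKH : CHA A H ≤ H := fun h hh =>
    (Subgroup.mem_inf.mp (show h ∈ H ⊓ Subgroup.centralizer (A : Set G) from hh)).1
  have hinf : (Cen y ⊓ Cen k) ⊓ H = Cen k ⊓ CHA A H := by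
    rw [← hK, inf_comm (Cen y) (Cen k), inf_assoc]
  show (Cen (y * k)).index = m * (Cen k).relIndex (CHA A H)
  rw [hC, lfk2_helper5_index A H _ hAHsup hAC, ← Subgroup.inf_relIndex_right, hinf,
    ← Subgroup.relIndex_inf_mul_relIndex, inf_eq_left.mpr hKH, hLFK1 G n m A H hctx, mul_comm]

end Cfsg.Agent.Lib.Helper4.FC
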