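import Mathlib
import Cfsg.Agent.Lib.Helper4.FCDefs

/-!
# Project FC (helper4, S4146): piece V1B2 (helper5)

`S₀ = S ∩ C(V1)` is a proper normal subgroup of the `s`-group `S`; take `z ∈ S` whose image is a
nontrivial central element of `S / S₀`.
-/

set_option autoImplicit false

namespace Cfsg.Agent.Lib.Helper4.FC

universe u

theorem fc_v1b2 : V1b2Stmt.{u} := by
  intro G _ _ s S V1 hs hV1 hnot
  have : Fact s.Prime := ⟨hs⟩
  have hCn : (Subgroup.centralizer (V1 : Set G)).Normal := Subgroup.normal_centralizer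
  have hS0 : ((Subgroup.centralizer (V1 : Set G)).subgroupOf (S : Subgroup G)).Normal :=
    Subgroup.Normal.subgroupOf hCn (S : Subgroup G)
  have hS0top : (Subgroup.centralizer (V1 : Set G)).subgroupOf (S : Subgroup G) ≠ ⊤ := by
    intro h
    exact hnot (Subgroup.subgroupOf_eq_top.mp h)
  have : Nontrivial ((S : Subgroup G) ⧸
      (Subgroup.centralizer (V1 : Set G)).subgroupOf (S : Subgroup G)) :=
    QuotientGroup.nontrivial_iff.mpr hS0top
  have hp : IsPGroup s ((S : Subgroup G) ⧸
      (Subgroup.centralizer (V1 : Set G)).subgroupOf (S : Subgroup G)) :=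
    S.isPGroup'.to_quotient _
  have := hp.center_nontrivial
  obtain ⟨⟨ζ, hζc⟩, hζ⟩ := exists_ne (1 : Subgroup.center ((S : Subgroup G) ⧸
      (Subgroup.centralizer (V1 : Set G)).subgroupOf (S : Subgroup G)))
  obtain ⟨z, rfl⟩ := QuotientGroup.mk_surjective ζ
  refine ⟨(z : G), z.2, ?_, ?_⟩
  · intro hz
    apply hζ
    apply Subtype.ext
    show (QuotientGroup.mk z : (S : Subgroup G) ⧸
      (Subgroup.centralizer (V1 : Set G)).subgroupOf (S : Subgroup G)) = 1
    rw [QuotientGroup.eq_one_iff]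
    exact Subgroup.mem_subgroupOf.mpr hz
  · intro y hy
    have h1 : (QuotientGroup.mk (z⁻¹ * (⟨y, hy⟩ : (S : Subgroup G))⁻¹ * z * ⟨y, hy⟩) :
        (S : Subgroup G) ⧸
          (Subgroup.centralizer (V1 : Set G)).subgroupOf (S : Subgroup G)) = 1 := by
      rw [Subgroup.mem_center_iff] at hζc
      have h2 := hζc (QuotientGroup.mk (⟨y, hy⟩ : (S : Subgroup G)))
      rw [QuotientGroup.mk_mul, QuotientGroup.mk_mul, QuotientGroup.mk_mul, QuotientGroup.mk_inv,
        QuotientGroup.mk_inv, mul_assoc, ← h2]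
      group
    rw [QuotientGroup.eq_one_iff] at h1
    exact Subgroup.mem_subgroupOf.mp h1

end Cfsg.Agent.Lib.Helper4.FC
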