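import Mathlib
import Cfsg.Agent.Lib.Helper44.Dickson
import Cfsg.Agent.Lib.Helper54.OrthSpin
import Cfsg.Agent.Lib.Helper51.OAF
import Cfsg.Agent.Lib.Helper51.HypPairs
import Cfsg.Agent.Lib.Helper51.Spinor

/-! # Piece M2 of the orthogonal outer automorphism project

A scalar multiple of the conjugation matrix of the anisotropic plane of the minus-type form is
never in `Ω`. -/

set_option autoImplicit false

namespace Cfsg.Agent.Lib.Helper5.OUM2

open Module QuadraticMap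
open Cfsg.Agent.Lib.Helper51

variable {F : Type*} [Field F]

theorem rank_ne_zero_of_ne_zero {ι : Type} [Fintype ι] [DecidableEq ι] (N : Matrix ι ι F)
    (hN : N ≠ 0) : N.rank ≠ 0 := by
  intro h
  apply hN
  unfold Matrix.rank at h
  have h1 : LinearMap.range N.mulVecLin = ⊥ := Submodule.finrank_eq_zero.mp h
  have h2 : N.mulVecLin = 0 := LinearMap.range_eq_bot.mp h1
  ext i j
  have h3 := congrArg (fun f => f (Pi.single j 1) i) h2
  simpa using h3

/-- In a finite field of characteristic two every element is a square. -/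
theorem exists_sq_eq [Fintype F] (h2 : (2 : F) = 0) (b : F) : ∃ d : F, d ^ 2 = b := by
  have hinj : Function.Injective (fun x : F => x ^ 2) := by
    intro x y hxy
    have hxy' : x ^ 2 = y ^ 2 := hxy
    have h3 : (x - y) ^ 2 = 0 := by
      have : (x - y) ^ 2 = x ^ 2 + y ^ 2 - 2 * (x * y) := by ring
      rw [this, hxy', h2]
      have : y ^ 2 + y ^ 2 = 2 * y ^ 2 := by ring
      rw [this, h2]
      ring
    have h4 : x - y = 0 := by
      exact pow_eq_zero_iff (two_ne_zero) |>.mp h3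
    exact sub_eq_zero.mp h4
  exact (Finite.injective_iff_surjective.mp hinj) b

theorem minus_aux [Fintype F] {m : ℕ} (hm : 3 ≤ m) (a b : F)
    (hab : ∀ z₁ z₂ : F, z₁ ^ 2 + a * z₁ * z₂ + b * z₂ ^ 2 = 0 → z₁ = 0 ∧ z₂ = 0)
    (Q : QuadraticForm F ((Fin m ⊕ Fin m) ⊕ Fin 2 → F))
    (hQe : ⇑Q = Cfsg.quadFormMinus m F a b) (hQ : (polarBilin Q).Nondegenerate)
    (s : ↥(Cfsg.Omega F ⇑Q)) (c : Fˣ) :
    (((s : ↥(Cfsg.isometryGroup F ⇑Q)) :
        GL ((Fin m ⊕ Fin m) ⊕ Fin 2) F) :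
          Matrix ((Fin m ⊕ Fin m) ⊕ Fin 2) ((Fin m ⊕ Fin m) ⊕ Fin 2) F)
      ≠ (c : F) • (Matrix.fromBlocks 1 0 0 !![1, a; 0, -1] :
          Matrix ((Fin m ⊕ Fin m) ⊕ Fin 2) ((Fin m ⊕ Fin m) ⊕ Fin 2) F) := by
  classical
  intro heq
  have hQapp : ∀ v : (Fin m ⊕ Fin m) ⊕ Fin 2 → F, Q v =
      (∑ i : Fin m, v (Sum.inl (Sum.inl i)) * v (Sum.inl (Sum.inr i))) +
        (v (Sum.inr 0) ^ 2 + a * v (Sum.inr 0) * v (Sum.inr 1) + b * v (Sum.inr 1) ^ 2) := by
    intro v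
    rw [hQe]
    rfl
  -- c ^ 2 = 1
  have hiso := isometry_apply Q (s : ↥(Cfsg.isometryGroup F ⇑Q)) (Pi.single (Sum.inr 0) 1)
  rw [heq, hQapp, hQapp] at hiso
  have hc2 : (c : F) ^ 2 = 1 := by
    simpa [Matrix.smul_mulVec, Matrix.mulVec_single_one] using hiso
  have hcard : Fintype.card ((Fin m ⊕ Fin m) ⊕ Fin 2) = 2 * (m + 1) := by
    simp
    ring
  by_cases h2 : (2 : F) = 0
  · -- characteristic two: c = 1 and the rank of s - 1 is one
    have hc1 : (c : F) = 1 := by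
      have h3 : ((c : F) - 1) ^ 2 = 0 := by
        have : ((c : F) - 1) ^ 2 = (c : F) ^ 2 + 1 - 2 * (c : F) := by ring
        rw [this, hc2, h2]
        have : (1 : F) + 1 = 2 := by norm_num
        rw [this, h2]
        ring
      exact sub_eq_zero.mp (pow_eq_zero_iff two_ne_zero |>.mp h3)
    rw [hc1, one_smul] at heq
    have ha : a ≠ 0 := by
      intro ha
      obtain ⟨d, hd⟩ := exists_sq_eq h2 b
      have := (hab d 1 (by
        rw [ha, hd]
        have : b + 0 * d * 1 + b * 1 ^ 2 = 2 * b := by ring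
        rw [this, h2, zero_mul])).2
      exact one_ne_zero this
    have : Nonempty ((Fin m ⊕ Fin m) ⊕ Fin 2) := ⟨Sum.inr 0⟩
    have hev := (Cfsg.Agent.Lib.Helper44.mem_commutator_iff_even_rank Q h2 hQ
      (Or.inr (by rw [hcard]; omega)) (s : ↥(Cfsg.isometryGroup F ⇑Q))).mp s.2
    rw [heq] at hev
    have hN : (Matrix.fromBlocks 1 0 0 !![1, a; 0, -1] :
          Matrix ((Fin m ⊕ Fin m) ⊕ Fin 2) ((Fin m ⊕ Fin m) ⊕ Fin 2) F) - 1 =
        Matrix.vecMulVec (Pi.single (Sum.inr 0) a) (Pi.single (Sum.inr 1) 1) := by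
      have hm1 : (-1 : F) - 1 = 0 := by
        have : (-1 : F) - 1 = -2 := by norm_num
        rw [this, h2, neg_zero]
      ext i j
      rcases i with i | i <;> rcases j with j | j
      · simp [Matrix.vecMulVec_apply, Matrix.one_apply]
      · simp [Matrix.vecMulVec_apply, Matrix.one_apply]
      · simp [Matrix.vecMulVec_apply, Matrix.one_apply]
      · fin_cases i <;> fin_cases j <;>
          simp [Matrix.vecMulVec_apply, Matrix.one_apply, hm1]
    rw [hN] at hev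
    have hle := Matrix.rank_vecMulVec_le (R := F)
      (Pi.single (Sum.inr 0) a : (Fin m ⊕ Fin m) ⊕ Fin 2 → F)
      (Pi.single (Sum.inr 1) 1 : (Fin m ⊕ Fin m) ⊕ Fin 2 → F)
    have hne := rank_ne_zero_of_ne_zero
      (Matrix.vecMulVec (Pi.single (Sum.inr 0) a : (Fin m ⊕ Fin m) ⊕ Fin 2 → F)
        (Pi.single (Sum.inr 1) 1 : (Fin m ⊕ Fin m) ⊕ Fin 2 → F)) (by
        intro h0
        have := congrFun (congrFun h0 (Sum.inr 0)) (Sum.inr 1)
        simp [Matrix.vecMulVec_apply] at this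
        exact ha this)
    have h1 : (Matrix.vecMulVec (Pi.single (Sum.inr 0) a : (Fin m ⊕ Fin m) ⊕ Fin 2 → F)
        (Pi.single (Sum.inr 1) 1 : (Fin m ⊕ Fin m) ⊕ Fin 2 → F)).rank = 1 := by omega
    rw [h1] at hev
    exact absurd hev (by decide)
  · -- odd characteristic: determinants
    have hdet := Cfsg.Agent.Lib.Helper54.detO_of_mem_commutator Q
      (s : ↥(Cfsg.isometryGroup F ⇑Q)) s.2
    have hdet' : (((s : ↥(Cfsg.isometryGroup F ⇑Q)) : GL ((Fin m ⊕ Fin m) ⊕ Fin 2) F) :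
        Matrix ((Fin m ⊕ Fin m) ⊕ Fin 2) ((Fin m ⊕ Fin m) ⊕ Fin 2) F).det = 1 := by
      have := congrArg (fun u : Fˣ => (u : F)) hdet
      exact this
    rw [heq, Matrix.det_smul, hcard, pow_mul, hc2, one_pow, one_mul,
      Matrix.det_fromBlocks_zero₁₂, Matrix.det_one, one_mul, Matrix.det_fin_two_of] at hdet'
    apply h2
    have : (1 : F) * -1 - a * 0 = -1 := by ring
    rw [this] at hdet'
    have h3 : (2 : F) = 1 - (-1) := by norm_num
    rw [h3, hdet']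
    ring

theorem minus_conj_not_omega [Fintype F] {m : ℕ} (hm : 3 ≤ m) (a b : F)
    (hab : ∀ z₁ z₂ : F, z₁ ^ 2 + a * z₁ * z₂ + b * z₂ ^ 2 = 0 → z₁ = 0 ∧ z₂ = 0)
    (s : ↥(Cfsg.Omega F (Cfsg.quadFormMinus m F a b))) (c : Fˣ) :
    (((s : ↥(Cfsg.isometryGroup F (Cfsg.quadFormMinus m F a b))) :
        GL ((Fin m ⊕ Fin m) ⊕ Fin 2) F) :
          Matrix ((Fin m ⊕ Fin m) ⊕ Fin 2) ((Fin m ⊕ Fin m) ⊕ Fin 2) F)
      ≠ (c : F) • (Matrix.fromBlocks 1 0 0 !![1, a; 0, -1] :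
          Matrix ((Fin m ⊕ Fin m) ⊕ Fin 2) ((Fin m ⊕ Fin m) ⊕ Fin 2) F) := by
  obtain ⟨Q, hQe, hQ, -, -⟩ := Cfsg.Agent.Lib.Helper51.OAF.minus_data hm a b hab
  revert s
  rw [← hQe]
  intro s
  exact minus_aux hm a b hab Q hQe hQ s c

end Cfsg.Agent.Lib.Helper5.OUM2
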