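import Mathlib
import Cfsg.Agent.Lib.Helper93.Sl3Defs
import Cfsg.Agent.Lib.Helper6.PSLCard

set_option autoImplicit false

namespace Cfsg.Agent.Lib.Helper93.Sl3

open Matrix

/-- MATCARD -/
theorem card_SL3 {F : Type*} [Field F] [Fintype F] : Nat.card (SpecialLinearGroup (Fin 3) F) =
    Fintype.card F ^ 3 * (Fintype.card F ^ 2 - 1) * (Fintype.card F ^ 3 - 1) := by
  have h := Cfsg.Agent.Lib.Helper6.card_sl (F := F) (q := Fintype.card F) rfl 3 (by norm_num)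
  rw [Fin.prod_univ_three] at h
  simp only [Fin.val_zero, Fin.val_one, Fin.val_two, pow_zero, pow_one] at h
  have hq : 2 ≤ Fintype.card F := Fintype.one_lt_card
  generalize Fintype.card F = q at h hq ⊢
  generalize Nat.card (SpecialLinearGroup (Fin 3) F) = N at h ⊢
  obtain ⟨k, rfl⟩ : ∃ k, q = k + 2 := ⟨q - 2, by omega⟩
  have e1 : k + 2 - 1 = k + 1 := by omega
  have e2 : (k + 2) ^ 3 - 1 = k ^ 3 + 6 * k ^ 2 + 12 * k + 7 := by
    have : (k + 2) ^ 3 = k ^ 3 + 6 * k ^ 2 + 12 * k + 7 + 1 := by ring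
    omega
  have e3 : (k + 2) ^ 3 - (k + 2) = (k + 2) * (k + 1) * (k + 3) := by
    have : (k + 2) ^ 3 = (k + 2) * (k + 1) * (k + 3) + (k + 2) := by ring
    omega
  have e4 : (k + 2) ^ 3 - (k + 2) ^ 2 = (k + 2) ^ 2 * (k + 1) := by
    have : (k + 2) ^ 3 = (k + 2) ^ 2 * (k + 1) + (k + 2) ^ 2 := by ring
    omega
  have e5 : (k + 2) ^ 2 - 1 = (k + 1) * (k + 3) := by
    have : (k + 2) ^ 2 = (k + 1) * (k + 3) + 1 := by ring
    omega
  rw [e1, e2, e3, e4] at h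
  rw [e2, e5]
  have hk : 0 < k + 1 := by omega
  apply Nat.eq_of_mul_eq_mul_left hk
  rw [h]
  ring

end Cfsg.Agent.Lib.Helper93.Sl3
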