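import Mathlib
import Cfsg.Agent.Lib.Helper93.Sl3Defs

set_option autoImplicit false

namespace Cfsg.Agent.Lib.Helper93.Sl3

/-- TORB -/
theorem torus_card {P : Type*} [Group P] (h c : P) (n : ℕ) (hn : 0 < n)
    (hh : h * (c * h * c⁻¹) = c * h * c⁻¹ * h)
    (hq : h ^ n = 1) : Finite (torusT h c) ∧ Nat.card (torusT h c) ≤ n ^ 2 := by
  set k : P := c * h * c⁻¹ with hk
  have hkn : k ^ n = 1 := by
    rw [hk, conj_pow, hq, mul_one, mul_inv_cancel]
  have hcomm : Commute h k := hh
  have hA : Nat.card (Subgroup.zpowers h) ≤ n := by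
    rw [Nat.card_zpowers]
    exact orderOf_le_of_pow_eq_one hn hq
  have hB : Nat.card (Subgroup.zpowers k) ≤ n := by
    rw [Nat.card_zpowers]
    exact orderOf_le_of_pow_eq_one hn hkn
  have hAfin : Finite (Subgroup.zpowers h) := by
    apply Nat.finite_of_card_ne_zero
    rw [Nat.card_zpowers]
    exact (orderOf_pos_iff.2 (isOfFinOrder_iff_pow_eq_one.2 ⟨n, hn, hq⟩)).ne'
  have hBfin : Finite (Subgroup.zpowers k) := by
    apply Nat.finite_of_card_ne_zero
    rw [Nat.card_zpowers]
    exact (orderOf_pos_iff.2 (isOfFinOrder_iff_pow_eq_one.2 ⟨n, hn, hkn⟩)).ne'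
  have hc2 : ∀ (a : Subgroup.zpowers h) (b : Subgroup.zpowers k),
      Commute ((Subgroup.zpowers h).subtype a) ((Subgroup.zpowers k).subtype b) := by
    rintro ⟨a, ha⟩ ⟨b, hb⟩
    obtain ⟨i, rfl⟩ := Subgroup.mem_zpowers_iff.1 ha
    obtain ⟨j, rfl⟩ := Subgroup.mem_zpowers_iff.1 hb
    exact Commute.zpow_zpow hcomm i j
  let φ : Subgroup.zpowers h × Subgroup.zpowers k →* P :=
    MonoidHom.noncommCoprod (Subgroup.zpowers h).subtype (Subgroup.zpowers k).subtype hc2
  have hrange : φ.range = torusT h c := by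
    rw [MonoidHom.noncommCoprod_range, Subgroup.range_subtype, Subgroup.range_subtype]
    unfold torusT
    rw [Subgroup.zpowers_eq_closure, Subgroup.zpowers_eq_closure, ← Subgroup.closure_union]
    rfl
  rw [← hrange]
  have hfin : Finite φ.range := Finite.of_surjective φ.rangeRestrict φ.rangeRestrict_surjective
  refine ⟨hfin, ?_⟩
  calc Nat.card φ.range ≤ Nat.card (Subgroup.zpowers h × Subgroup.zpowers k) :=
        Nat.card_le_card_of_surjective φ.rangeRestrict φ.rangeRestrict_surjective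
    _ = Nat.card (Subgroup.zpowers h) * Nat.card (Subgroup.zpowers k) := Nat.card_prod _ _
    _ ≤ n * n := Nat.mul_le_mul hA hB
    _ = n ^ 2 := by ring

end Cfsg.Agent.Lib.Helper93.Sl3
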