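import Mathlib
import Cfsg.Agent.Lib.Helper5.V4Order

/-!
# The principal `2`-block of a group with Sylow `2`-subgroups of order four (helper5)

For a Sylow `2`-subgroup `P` of order `4` and an involution `J ∈ P`, the principal `2`-block
consists of the principal character and three further characters, each taking the value `±1`
at `J` (`v4_block`).  No hypothesis on the centralizer of `J` is needed.
-/

set_option autoImplicit false

namespace Cfsg.Agent.Lib.Helper5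

open Cfsg
open scoped ComplexConjugate

universe u

set_option maxHeartbeats 1600000 in
/-- The principal `2`-block when the Sylow `2`-subgroups have order four. -/
theorem v4_block {G : Type u} [Group G] [Finite G] (M : Ideal AlgInt) (hM : IsPModular 2 M)
    (P : Sylow 2 G) (hP : Nat.card P = 4) (J : G) (hJP : J ∈ (P : Subgroup G))
    (hJ : orderOf J = 2) :
    ∃ (χ₁ χ₂ χ₃ : IrrCharacter G) (ε₁ ε₂ ε₃ : ℤ),
      principalBlock M G = {χ : IrrCharacter G | (χ : G → ℂ) = (fun _ => 1) ∨ χ = χ₁ ∨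
        χ = χ₂ ∨ χ = χ₃} ∧
      ((χ₁ : G → ℂ) ≠ (fun _ => 1) ∧ (χ₂ : G → ℂ) ≠ (fun _ => 1) ∧
        (χ₃ : G → ℂ) ≠ (fun _ => 1) ∧ χ₁ ≠ χ₂ ∧ χ₁ ≠ χ₃ ∧ χ₂ ≠ χ₃) ∧
      ((ε₁ = 1 ∨ ε₁ = -1) ∧ (ε₂ = 1 ∨ ε₂ = -1) ∧ (ε₃ = 1 ∨ ε₃ = -1)) ∧
      ((χ₁ : G → ℂ) J = ε₁ ∧ (χ₂ : G → ℂ) J = ε₂ ∧ (χ₃ : G → ℂ) J = ε₃) := by
  classical
  haveI : Fact (Nat.Prime 2) := ⟨Nat.prime_two⟩
  letI : Fintype G := Fintype.ofFinite G
  haveI := Cfsg.Agent.Lib.Helper4.irr_finite (G := G)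
  letI : Fintype (IrrCharacter G) := Fintype.ofFinite _
  have hJJ : J * J = 1 := by
    rw [← pow_two, ← hJ]; exact pow_orderOf_eq_one J
  have hJ1 : J ≠ 1 := by
    rintro rfl
    rw [orderOf_one] at hJ
    omega
  -- the class of `J` has odd size
  have hidx : ¬ 2 ∣ (Subgroup.centralizer ({J} : Set G)).index := by
    intro h
    exact P.not_dvd_index (dvd_trans h
      (Subgroup.index_dvd_of_le (Cfsg.Agent.Lib.Helper79.sylow_le_centralizer P hP hJP)))
  -- the norm sum at `J`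
  have hidxK := Cfsg.Agent.Lib.Helper79.index_pPrimeCore_centralizer P hP hJP hJ
  have hidxK' : (pPrimeCore 2 (Subgroup.centralizer ({J} : Set G))).index = 2 ^ 2 := by
    rw [hidxK]; norm_num
  have hfac := Cfsg.Agent.Lib.Helper79.factorization_card_of_index 2 hidxK'
  have h947 := (Cfsg.Agent.S0947.result 2 M hM J ⟨1, by rw [hJ, pow_one]⟩ hJ1
    (1 : Subgroup.centralizer ({J} : Set G)) (by rw [orderOf_one]; norm_num)).2 ⟨2, hidxK'⟩
  rw [hfac] at h947
  simp only [OneMemClass.coe_one, mul_one] at h947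
  -- integrality
  have hint : ∀ χ : IrrCharacter G, ∃ c : ℤ, (χ : G → ℂ) J = c := by
    intro χ
    obtain ⟨k0, k1, -, h⟩ := char_invol_data (Cfsg.Agent.Lib.Helper35.isChar_of_irr χ.2) J hJJ
    exact ⟨(k0 : ℤ) - k1, by rw [h]; push_cast; ring⟩
  choose c hc using hint
  have hsum : ∑ χ ∈ Finset.univ.filter (· ∈ principalBlock M G), c χ ^ 2 = 4 := by
    rw [Cfsg.Agent.Lib.Helper79.finsum_mem_eq_sum_filter_univ] at h947
    have h1 : ((∑ χ ∈ Finset.univ.filter (· ∈ principalBlock M G), c χ ^ 2 : ℤ) : ℝ) =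
        ((4 : ℤ) : ℝ) := by
      have h4 : (((2 ^ 2 : ℕ) : ℝ)) = ((4 : ℤ) : ℝ) := by norm_num
      rw [← h4, ← h947]
      push_cast
      refine Finset.sum_congr rfl (fun χ _ => ?_)
      rw [hc χ, Complex.norm_intCast, sq_abs]
    exact_mod_cast h1
  -- non-vanishing
  have hnz : ∀ χ ∈ Finset.univ.filter (· ∈ principalBlock M G), c χ ≠ 0 := by
    intro χ hχ h0
    rw [Finset.mem_filter] at hχ
    have hs : SameBlock M (fun _ : G => (1 : ℂ)) (χ : G → ℂ) := hχ.2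
    have h1 := hs J
    unfold centralChar at h1
    rw [hc χ, h0] at h1
    simp only [Int.cast_zero, mul_zero, zero_div, sub_zero, mul_one, div_one] at h1
    exact Cfsg.Agent.Lib.Helper82.not_memLocalIdeal_natCast hM hidx h1
  have ht0 : Cfsg.Agent.Lib.Helper83.trivIrr G ∈
      Finset.univ.filter (· ∈ principalBlock M G) := by
    rw [Finset.mem_filter]
    exact ⟨Finset.mem_univ _, Cfsg.Agent.Lib.Helper79.trivIrr_mem_principalBlock hM⟩
  have hc0 : c (Cfsg.Agent.Lib.Helper83.trivIrr G) = 1 := by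
    have h := hc (Cfsg.Agent.Lib.Helper83.trivIrr G)
    rw [Cfsg.Agent.Lib.Helper83.trivIrr_apply] at h
    exact_mod_cast h.symm
  obtain ⟨χ₁, χ₂, χ₃, h10, h20, h30, h12, h13, h23, hε₁, hε₂, hε₃, hmem⟩ :=
    v4_four (Finset.univ.filter (· ∈ principalBlock M G)) c hsum hnz
      (Cfsg.Agent.Lib.Helper83.trivIrr G) ht0 hc0
  have htriv : ∀ χ : IrrCharacter G, χ = Cfsg.Agent.Lib.Helper83.trivIrr G ↔
      (χ : G → ℂ) = (fun _ => 1) := by
    intro χ
    constructor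
    · rintro rfl; rfl
    · intro h; exact Subtype.ext h
  refine ⟨χ₁, χ₂, χ₃, c χ₁, c χ₂, c χ₃, ?_, ⟨fun h => h10 ((htriv χ₁).mpr h),
    fun h => h20 ((htriv χ₂).mpr h), fun h => h30 ((htriv χ₃).mpr h), h12, h13, h23⟩,
    ⟨hε₁, hε₂, hε₃⟩, ⟨hc χ₁, hc χ₂, hc χ₃⟩⟩
  ext χ
  have h := hmem χ
  rw [Finset.mem_filter, htriv χ] at h
  rw [Set.mem_setOf_eq]
  constructor
  · intro hχ; exact h.mp ⟨Finset.mem_univ _, hχ⟩
  · intro hχ; exact (h.mpr hχ).2

end Cfsg.Agent.Lib.Helper5
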