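import Mathlib

/-!
# Arithmetic for groups with a Sylow `2`-subgroup of order four centralized by `C(J)` (helper5)

When `C(J) = C(P)` the order formula of the principal `2`-block reads
`[G : C(J)] * (1 + ε₁/x₁ + ε₂/x₂ + ε₃/x₃) = 8` with `1 + ε₁ x₁ + ε₂ x₂ + ε₃ x₃ = 0`; with
`[G : C(J)]` odd the only solutions are the degrees `(1,1,3)` (index `3`) and `(5,3,3)`
(index `15`).
-/

set_option autoImplicit false

namespace Cfsg.Agent.Lib.Helper5

set_option synthInstance.maxHeartbeats 400000 in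
set_option synthInstance.maxSize 4000 in
theorem v4k_dec_ppm : ∀ N < 8, ∀ a < 12, ∀ b < 31, (N % 2 = 1 ∧ 0 < a ∧ a ≤ b ∧
    N * ((a + b) * (a + 1) * (b + 1)) = 8 * (a * b * (a + b + 1))) → (a = 1 ∧ b = 1 ∧ N = 3) := by
  decide

set_option synthInstance.maxHeartbeats 400000 in
set_option synthInstance.maxSize 4000 in
set_option maxRecDepth 100000 in
theorem v4k_dec_pmm : ∀ N < 25, ∀ a < 17, ∀ b < 49, (N % 2 = 1 ∧ 0 < a ∧ a ≤ b ∧
    N * ((a + b + 2) * (a * b)) = 8 * ((a + 1) * (b + 1) * (a + b + 1))) →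
    (a = 2 ∧ b = 2 ∧ N = 15) := by
  decide

/-- Signs `(+,+,-)`, ordered. -/
theorem v4k_ppm_aux (N a b : ℕ) (hN : N % 2 = 1) (ha : 0 < a) (hab : a ≤ b)
    (hform : N * ((a + b) * (a + 1) * (b + 1)) = 8 * (a * b * (a + b + 1))) :
    a = 1 ∧ b = 1 ∧ N = 3 := by
  have hX : (a + b) * (a + 1) * (b + 1) =
      a * b * (a + b + 1) + (a * a + b * b + a * b + a + b) := by ring
  have hN8 : N < 8 := by
    by_contra h
    push Not at h
    have h1 := Nat.mul_le_mul_right ((a + b) * (a + 1) * (b + 1)) h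
    rw [hform, hX] at h1
    have h2 : 0 < a * a + b * b + a * b + a + b := by positivity
    omega
  have hY : (a + b) * (a + 1) * (b + 1) = (a + 1) * (b * (b + a + 1) + a) := by ring
  have hZ : a * b * (a + b + 1) = a * (b * (b + a + 1)) := by ring
  have hlt : N * (a + 1) < 8 * a := by
    by_contra h
    push Not at h
    have h1 := Nat.mul_le_mul_right (b * (b + a + 1) + a) h
    rw [hY, hZ] at hform
    have h2 : N * ((a + 1) * (b * (b + a + 1) + a)) =
        N * (a + 1) * (b * (b + a + 1) + a) := by ring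
    have h3 : 8 * a * (b * (b + a + 1) + a) = 8 * (a * (b * (b + a + 1))) + 8 * (a * a) := by
      ring
    have h4 : 0 < a * a := by positivity
    omega
  obtain ⟨D, hD⟩ : ∃ D : ℕ, D + N * (a + 1) = 8 * a := ⟨8 * a - N * (a + 1), by omega⟩
  have hE : D * (b * (b + a + 1)) = N * (a * (a + 1)) := by
    zify at hD hform ⊢
    linear_combination ((b : ℤ) * (b + a + 1)) * hD - hform
  have hNpos : 0 < N := by omega
  have hD1 : 0 < D := by
    rcases Nat.eq_zero_or_pos D with h | h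
    · rw [h, zero_mul] at hE
      have : 0 < N * (a * (a + 1)) := by positivity
      omega
    · exact h
  have hW : a * (2 * a + 1) ≤ b * (b + a + 1) := Nat.mul_le_mul hab (by omega)
  have hD4 : D ≤ 4 := by
    by_contra h
    push Not at h
    have h1 : 5 * (a * (2 * a + 1)) ≤ D * (b * (b + a + 1)) := Nat.mul_le_mul h hW
    have h2 : N * (a * (a + 1)) ≤ 7 * (a * (a + 1)) := Nat.mul_le_mul_right _ (by omega)
    have h3 := Nat.mul_le_mul_left a ha
    nlinarith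
  have ha11 : a ≤ 11 := by
    have h5 : N * (a + 1) ≤ 7 * (a + 1) := Nat.mul_le_mul_right _ (by omega)
    omega
  have hb30 : b ≤ 30 := by
    by_contra h
    push Not at h
    have h1 : a * (a + 1) ≤ 11 * 12 := Nat.mul_le_mul ha11 (by omega)
    have h2 : N * (a * (a + 1)) ≤ 7 * (11 * 12) := Nat.mul_le_mul (by omega) h1
    have h3 : 31 * 31 ≤ b * (b + a + 1) := Nat.mul_le_mul h (by omega)
    have h4 : 1 * (b * (b + a + 1)) ≤ D * (b * (b + a + 1)) := Nat.mul_le_mul_right _ hD1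
    omega
  exact v4k_dec_ppm N hN8 a (by omega) b (by omega) ⟨hN, ha, hab, hform⟩

/-- Signs `(+,+,-)`: the index is `3`. -/
theorem v4k_ppm (N a b c : ℕ) (hN : N % 2 = 1) (ha : 0 < a) (hb : 0 < b) (hc : c = a + b + 1)
    (hz : (N : ℤ) * ((a : ℤ) * b * c + b * c + a * c - a * b) = 8 * ((a : ℤ) * b * c)) :
    N = 3 := by
  subst hc
  push_cast at hz
  rcases le_total a b with hab | hab
  · refine (v4k_ppm_aux N a b hN ha hab ?_).2.2
    zify
    linear_combination hz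
  · refine (v4k_ppm_aux N b a hN hb hab ?_).2.2
    zify
    linear_combination hz

/-- Signs `(+,-,-)`, shifted and ordered. -/
theorem v4k_pmm_aux (N a b : ℕ) (hN : N % 2 = 1) (ha : 0 < a) (hab : a ≤ b)
    (hform : N * ((a + b + 2) * (a * b)) = 8 * ((a + 1) * (b + 1) * (a + b + 1))) :
    a = 2 ∧ b = 2 ∧ N = 15 := by
  have hX : (a + b + 2) * (a * b) = a * (b * (a + b + 2)) := by ring
  have hY : (a + 1) * (b + 1) * (a + b + 1) = (a + 1) * (b * (a + b + 2) + (a + 1)) := by ring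
  have hgt : 8 * (a + 1) < N * a := by
    by_contra h
    push Not at h
    have h1 := Nat.mul_le_mul_right (b * (a + b + 2)) h
    rw [hX, hY] at hform
    have h2 : N * (a * (b * (a + b + 2))) = N * a * (b * (a + b + 2)) := by ring
    have h3 : 8 * ((a + 1) * (b * (a + b + 2) + (a + 1))) =
        8 * (a + 1) * (b * (a + b + 2)) + 8 * ((a + 1) * (a + 1)) := by ring
    have h4 : 0 < (a + 1) * (a + 1) := by positivity
    omega
  obtain ⟨D, hD⟩ : ∃ D : ℕ, D + 8 * (a + 1) = N * a := ⟨N * a - 8 * (a + 1), by omega⟩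
  have hE : D * (b * (a + b + 2)) = 8 * ((a + 1) * (a + 1)) := by
    zify at hD hform ⊢
    linear_combination ((b : ℤ) * (a + b + 2)) * hD + hform
  have hV : a * (2 * a + 2) ≤ b * (a + b + 2) := Nat.mul_le_mul hab (by omega)
  have hD8 : D ≤ 8 := by
    by_contra h
    push Not at h
    have h1 : 9 * (a * (2 * a + 2)) ≤ D * (b * (a + b + 2)) := Nat.mul_le_mul h hV
    have h3 := Nat.mul_le_mul_left a ha
    nlinarith
  have hN9 : 9 ≤ N := by
    by_contra h
    push Not at h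
    have h1 : N * a ≤ 8 * a := Nat.mul_le_mul_right _ (by omega)
    omega
  have ha16 : a ≤ 16 := by
    have h1 : 9 * a ≤ N * a := Nat.mul_le_mul_right _ hN9
    omega
  have hN24 : N ≤ 24 := by
    by_contra h
    push Not at h
    have h1 : 25 * a ≤ N * a := Nat.mul_le_mul_right _ h
    omega
  have hD1 : 0 < D := by
    rcases Nat.eq_zero_or_pos D with h | h
    · rw [h, zero_mul] at hE
      have : 0 < (a + 1) * (a + 1) := by positivity
      omega
    · exact h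
  have hb48 : b ≤ 48 := by
    by_contra h
    push Not at h
    have h1 : (a + 1) * (a + 1) ≤ 17 * 17 := Nat.mul_le_mul (by omega) (by omega)
    have h3 : 49 * 49 ≤ b * (a + b + 2) := Nat.mul_le_mul h (by omega)
    have h4 : 1 * (b * (a + b + 2)) ≤ D * (b * (a + b + 2)) := Nat.mul_le_mul_right _ hD1
    omega
  exact v4k_dec_pmm N (by omega) a (by omega) b (by omega) ⟨hN, ha, hab, hform⟩

/-- Signs `(+,-,-)`: the index is `15` and the two characters with sign `-` have degree `3`. -/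
theorem v4k_pmm (N a b c : ℕ) (hN : N % 2 = 1) (ha : 0 < a) (hb : 0 < b) (hc : c + 1 = a + b)
    (hz : (N : ℤ) * ((a : ℤ) * b * c + a * b - b * c - a * c) = 8 * ((a : ℤ) * b * c)) :
    N = 15 ∧ a = 3 ∧ b = 3 := by
  obtain ⟨a', rfl⟩ : ∃ a', a = a' + 1 := ⟨a - 1, by omega⟩
  obtain ⟨b', rfl⟩ : ∃ b', b = b' + 1 := ⟨b - 1, by omega⟩
  obtain rfl : c = a' + b' + 1 := by omega
  push_cast at hz
  have hform : N * ((a' + b' + 2) * (a' * b')) = 8 * ((a' + 1) * (b' + 1) * (a' + b' + 1)) := by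
    zify
    linear_combination hz
  have ha0 : 0 < a' := by
    rcases Nat.eq_zero_or_pos a' with h | h
    · rw [h] at hform
      simp at hform
    · exact h
  have hb0 : 0 < b' := by
    rcases Nat.eq_zero_or_pos b' with h | h
    · rw [h] at hform
      simp at hform
    · exact h
  rcases le_total a' b' with hab | hab
  · obtain ⟨h1, h2, h3⟩ := v4k_pmm_aux N a' b' hN ha0 hab hform
    exact ⟨h3, by omega, by omega⟩
  · have hform' : N * ((b' + a' + 2) * (b' * a')) = 8 * ((b' + 1) * (a' + 1) * (b' + a' + 1)) := by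
      rw [show (b' + a' + 2) * (b' * a') = (a' + b' + 2) * (a' * b') by ring,
        show (b' + 1) * (a' + 1) * (b' + a' + 1) = (a' + 1) * (b' + 1) * (a' + b' + 1) by ring]
      exact hform
    obtain ⟨h1, h2, h3⟩ := v4k_pmm_aux N b' a' hN hb0 hab hform'
    exact ⟨h3, by omega, by omega⟩

/-- The arithmetic of the principal block with four characters when `C(J) = C(P)`. -/
theorem v4k_arith (N x₁ x₂ x₃ : ℕ) (ε₁ ε₂ ε₃ : ℤ) (hN : N % 2 = 1)
    (h1 : 0 < x₁) (h2 : 0 < x₂) (h3 : 0 < x₃)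
    (hε₁ : ε₁ = 1 ∨ ε₁ = -1) (hε₂ : ε₂ = 1 ∨ ε₂ = -1) (hε₃ : ε₃ = 1 ∨ ε₃ = -1)
    (hlin : 1 + ε₁ * (x₁ : ℤ) + ε₂ * (x₂ : ℤ) + ε₃ * (x₃ : ℤ) = 0)
    (hform : (N : ℚ) * (1 + (ε₁ : ℚ) / (x₁ : ℚ) + (ε₂ : ℚ) / (x₂ : ℚ) + (ε₃ : ℚ) / (x₃ : ℚ)) = 8) :
    N = 3 ∨ (N = 15 ∧ ((ε₁ = -1 ∧ x₁ = 3) ∨ (ε₂ = -1 ∧ x₂ = 3) ∨ (ε₃ = -1 ∧ x₃ = 3))) := by
  have hz : (N : ℤ) * ((x₁ : ℤ) * x₂ * x₃ + ε₁ * (x₂ * x₃) + ε₂ * (x₁ * x₃) + ε₃ * (x₁ * x₂)) =
      8 * ((x₁ : ℤ) * x₂ * x₃) := by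
    have h1' : (x₁ : ℚ) ≠ 0 := by positivity
    have h2' : (x₂ : ℚ) ≠ 0 := by positivity
    have h3' : (x₃ : ℚ) ≠ 0 := by positivity
    have hq : (N : ℚ) * ((x₁ : ℚ) * x₂ * x₃ + ε₁ * (x₂ * x₃) + ε₂ * (x₁ * x₃) + ε₃ * (x₁ * x₂)) =
        8 * ((x₁ : ℚ) * x₂ * x₃) := by
      rw [← hform]
      field_simp
    exact_mod_cast hq
  rcases hε₁ with rfl | rfl <;> rcases hε₂ with rfl | rfl <;> rcases hε₃ with rfl | rfl
  · omega
  · left
    exact v4k_ppm N x₁ x₂ x₃ hN h1 h2 (by omega) (by linear_combination hz)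
  · left
    exact v4k_ppm N x₁ x₃ x₂ hN h1 h3 (by omega) (by linear_combination hz)
  · right
    obtain ⟨hN15, ha, hb⟩ := v4k_pmm N x₂ x₃ x₁ hN h2 h3 (by omega) (by linear_combination hz)
    exact ⟨hN15, Or.inr (Or.inl ⟨rfl, ha⟩)⟩
  · left
    exact v4k_ppm N x₂ x₃ x₁ hN h2 h3 (by omega) (by linear_combination hz)
  · right
    obtain ⟨hN15, ha, hb⟩ := v4k_pmm N x₁ x₃ x₂ hN h1 h3 (by omega) (by linear_combination hz)
    exact ⟨hN15, Or.inl ⟨rfl, ha⟩⟩
  · right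
    obtain ⟨hN15, ha, hb⟩ := v4k_pmm N x₁ x₂ x₃ hN h1 h2 (by omega) (by linear_combination hz)
    exact ⟨hN15, Or.inl ⟨rfl, ha⟩⟩
  · omega

end Cfsg.Agent.Lib.Helper5
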