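import Mathlib
import Cfsg.Agent.Lib.Helper35.Ind
import Cfsg.Agent.Lib.Helper83.Linear
import Cfsg.Agent.Lib.Helper83.CharBasic
import Cfsg.Agent.Lib.Helper20.Clifford

/-!
# A character of degree three that is `-1` on `P# · ⟨k⟩` (helper5)

If `χ` has degree `3`, `P` is a subgroup of order `4` centralized by `k`, and `χ (v z) = -1` for
all `1 ≠ v ∈ P` and `z ∈ ⟨k⟩`, then `χ k = 3`: the multiplicity of the trivial character in the
restriction of `χ` to `P × ⟨k⟩` is `(e - 3) / 4`, `e` the multiplicity in the restriction to `⟨k⟩`.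
-/

set_option autoImplicit false

namespace Cfsg.Agent.Lib.Helper5

open Cfsg Subgroup
open scoped ComplexConjugate

set_option maxHeartbeats 800000 in
theorem char_three_const {G : Type*} [Group G] [Finite G] {χ : G → ℂ} (hχ : IsCharacter G χ)
    (h3 : χ 1 = 3) (P : Subgroup G) (hP : Nat.card P = 4) (k : G)
    (hcomm : ∀ v ∈ P, ∀ z ∈ zpowers k, v * z = z * v)
    (hval : ∀ v ∈ P, v ≠ 1 → ∀ z ∈ zpowers k, χ (v * z) = -1) : χ k = 3 := by
  classical
  letI : Fintype G := Fintype.ofFinite G
  letI : Fintype P := Fintype.ofFinite P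
  letI : Fintype (zpowers k) := Fintype.ofFinite _
  have hc : ∀ (v : P) (z : zpowers k), Commute (P.subtype v) ((zpowers k).subtype z) :=
    fun v z => hcomm v v.2 z z.2
  have hψ : IsCharacter (P × zpowers k) (fun a => χ ((MonoidHom.noncommCoprod P.subtype
      (zpowers k).subtype hc) a)) :=
    Cfsg.Agent.Lib.Helper20.isCharacter_comp _ hχ
  have hφ : IsCharacter (zpowers k) (fun z => χ ((zpowers k).subtype z)) :=
    Cfsg.Agent.Lib.Helper20.isCharacter_comp _ hχ
  obtain ⟨m, hm⟩ := Cfsg.Agent.Lib.Helper35.classInner_char_nat hψ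
    (Cfsg.Agent.Lib.Helper35.isChar_of_irr
      (Cfsg.Agent.Lib.Helper83.isIrr_one (G := P × zpowers k)))
  obtain ⟨e, he⟩ := Cfsg.Agent.Lib.Helper35.classInner_char_nat hφ
    (Cfsg.Agent.Lib.Helper35.isChar_of_irr
      (Cfsg.Agent.Lib.Helper83.isIrr_one (G := zpowers k)))
  unfold classInner at hm he
  simp only [map_one, mul_one, MonoidHom.noncommCoprod_apply, Subgroup.coe_subtype] at hm he
  obtain ⟨r, hr⟩ : ∃ r : ℕ, r = Nat.card (zpowers k) := ⟨_, rfl⟩
  have hrpos : 0 < r := by rw [hr]; exact Nat.card_pos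
  have hr0 : (r : ℂ) ≠ 0 := by exact_mod_cast hrpos.ne'
  rw [← hr] at he
  have hS : ∑ z : zpowers k, χ (z : G) = (r : ℂ) * e := by
    rw [← he, ← mul_assoc, mul_inv_cancel₀ hr0, one_mul]
  have hcardz : Fintype.card (zpowers k) = r := by rw [hr, Nat.card_eq_fintype_card]
  have hcardP : Fintype.card P = 4 := by rw [← hP, Nat.card_eq_fintype_card]
  have hsum : ∑ a : P × zpowers k, χ ((a.1 : G) * (a.2 : G)) = (r : ℂ) * e - 3 * r := by
    rw [Fintype.sum_prod_type, ← Finset.add_sum_erase Finset.univ _ (Finset.mem_univ (1 : P))]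
    have h1 : ∑ z : zpowers k, χ (((1 : P) : G) * (z : G)) = (r : ℂ) * e := by
      rw [← hS]
      refine Finset.sum_congr rfl (fun z _ => ?_)
      rw [Subgroup.coe_one, one_mul]
    have h2 : ∀ v ∈ (Finset.univ : Finset P).erase 1,
        ∑ z : zpowers k, χ ((v : G) * (z : G)) = -(r : ℂ) := by
      intro v hv
      have hv1 : (v : G) ≠ 1 := by
        intro h
        exact (Finset.ne_of_mem_erase hv) (Subtype.ext h)
      rw [Finset.sum_congr rfl (fun (z : zpowers k) _ => hval (v : G) v.2 hv1 (z : G) z.2)]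
      rw [Finset.sum_const, Finset.card_univ, hcardz]
      simp
    rw [h1, Finset.sum_congr rfl h2, Finset.sum_const, Finset.card_erase_of_mem (Finset.mem_univ _),
      Finset.card_univ, hcardP]
    simp
    ring
  have hcardprod : (Nat.card (P × zpowers k) : ℂ) = 4 * r := by
    rw [Nat.card_prod, hP, ← hr]
    push_cast
    ring
  rw [hcardprod, hsum] at hm
  have hem : (e : ℂ) = 4 * m + 3 := by
    have h4 : (4 * (r : ℂ)) ≠ 0 := mul_ne_zero (by norm_num) hr0
    have h5 : (r : ℂ) * e - 3 * r = 4 * r * m := by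
      rw [← hm, ← mul_assoc, mul_inv_cancel₀ h4, one_mul]
    have h6 : (r : ℂ) * (e - (4 * m + 3)) = 0 := by linear_combination h5
    rcases mul_eq_zero.mp h6 with h | h
    · exact absurd h hr0
    · linear_combination h
  have hem' : e = 4 * m + 3 := by exact_mod_cast hem
  -- the norm bound
  obtain ⟨n, ρ, rfl⟩ := hχ
  have hn : (Module.finrank ℂ (Fin n → ℂ) : ℝ) = 3 := by
    have h1 : (Module.finrank ℂ (Fin n → ℂ) : ℂ) = 3 := by
      rw [← Representation.char_one ρ]; exact h3
    exact_mod_cast h1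
  have hbound : ∀ g : G, ‖ρ.character g‖ ≤ 3 := by
    intro g
    have := Cfsg.Agent.Lib.Helper83.norm_char_le ρ g
    rwa [hn] at this
  have hre : ∀ z : zpowers k, (ρ.character (z : G)).re ≤ 3 :=
    fun z => (Complex.re_le_norm _).trans (hbound z)
  have hsumre : ∑ z : zpowers k, (3 - (ρ.character (z : G)).re) = 3 * (r : ℝ) - r * e := by
    rw [Finset.sum_sub_distrib, ← Complex.re_sum, hS, Finset.sum_const, Finset.card_univ, hcardz]
    simp
    ring
  have hle0 : ∑ z : zpowers k, (3 - (ρ.character (z : G)).re) ≤ 0 := by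
    rw [hsumre, hem']
    push_cast
    have hr' : (0 : ℝ) < r := by exact_mod_cast hrpos
    have hm' : (0 : ℝ) ≤ m := by positivity
    nlinarith
  have hzero := (Finset.sum_eq_zero_iff_of_nonneg
    (fun z _ => sub_nonneg.mpr (hre z))).mp
    (le_antisymm hle0 (Finset.sum_nonneg (fun z _ => sub_nonneg.mpr (hre z))))
  have hk := hzero ⟨k, mem_zpowers k⟩ (Finset.mem_univ _)
  have hk3 : (ρ.character k).re = 3 := by
    have : (3 : ℝ) - (ρ.character k).re = 0 := hk
    linarith
  have hnk := hbound k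
  have hsq : ‖ρ.character k‖ ^ 2 = (ρ.character k).re * (ρ.character k).re +
      (ρ.character k).im * (ρ.character k).im := by
    rw [Complex.sq_norm, Complex.normSq_apply]
  have him : (ρ.character k).im = 0 := by
    have h1 : ‖ρ.character k‖ ^ 2 ≤ 3 ^ 2 := by
      apply pow_le_pow_left₀ (norm_nonneg _) hnk
    rw [hsq, hk3] at h1
    nlinarith
  apply Complex.ext
  · rw [hk3]; simp
  · rw [him]; simp

end Cfsg.Agent.Lib.Helper5
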